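import Mathlib
import Cfsg.Prelude.Def_Solvable

set_option autoImplicit false
set_option linter.unusedSectionVars false
set_option linter.unusedVariables false

/-!
An abstract criterion for `O_{p'}(C_A(φ)) ≠ 1`, `Inn K ≤ A ≤ Aut K`.
-/

namespace Cfsg.Agent.Lib.Helper98.LB

lemma pPrimeCore_ne_bot_iff {G : Type*} [Group G] (p : ℕ) :
    Cfsg.pPrimeCore p G ≠ ⊥ ↔ ∃ N : Subgroup G, N.Normal ∧ (Nat.card N).Coprime p ∧ N ≠ ⊥ := by
  unfold Cfsg.pPrimeCore
  constructor
  · intro h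
    by_contra hcon
    push Not at hcon
    apply h
    rw [eq_bot_iff]
    apply sSup_le
    rintro N ⟨h1, h2⟩
    rw [hcon N h1 h2]
  · rintro ⟨N, h1, h2, h3⟩ h
    apply h3
    rw [eq_bot_iff, ← h]
    exact le_sSup ⟨h1, h2⟩

lemma pPrimeCore_ne_bot_of_equiv {G H : Type*} [Group G] [Group H] (e : G ≃* H) (p : ℕ)
    (h : Cfsg.pPrimeCore p G ≠ ⊥) : Cfsg.pPrimeCore p H ≠ ⊥ := by
  rw [pPrimeCore_ne_bot_iff] at h ⊢
  obtain ⟨N, h1, h2, h3⟩ := h
  refine ⟨N.map e.toMonoidHom, h1.map _ e.surjective, ?_, ?_⟩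
  · have := Nat.card_congr (e.subgroupMap N).toEquiv
    show (Nat.card ↥(N.map (e : G →* H))).Coprime p
    rw [← this]
    exact h2
  · intro h
    exact h3 ((Subgroup.map_eq_bot_iff_of_injective N e.injective).1 h)

lemma pPrimeCore_ne_bot_congr {G H : Type*} [Group G] [Group H] (e : G ≃* H) (p : ℕ) :
    Cfsg.pPrimeCore p G ≠ ⊥ ↔ Cfsg.pPrimeCore p H ≠ ⊥ :=
  ⟨pPrimeCore_ne_bot_of_equiv e p, pPrimeCore_ne_bot_of_equiv e.symm p⟩

variable {K : Type*} [Group K]

lemma conj_conj (n : MulAut K) (k : K) : n * MulAut.conj k * n⁻¹ = MulAut.conj (n k) := by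
  ext y
  simp [MulAut.mul_apply, MulAut.conj_apply]

/-- transport along a conjugation in `Aut K`. -/
theorem transport (A : Subgroup (MulAut K)) (p : ℕ) {x α φ : MulAut K} (e : α * x * α⁻¹ = φ) :
    (Cfsg.pPrimeCore p ↥(A ⊓ Subgroup.centralizer {x}) ≠ ⊥ ↔
      Cfsg.pPrimeCore p ↥(A.map (MulAut.conj α).toMonoidHom ⊓ Subgroup.centralizer {φ}) ≠ ⊥) ∧
    Nat.card ↥(MonoidHom.eqLocus x.toMonoidHom (MonoidHom.id K)) =
      Nat.card ↥(MonoidHom.eqLocus φ.toMonoidHom (MonoidHom.id K)) := by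
  constructor
  · have h : (A ⊓ Subgroup.centralizer {x}).map (MulAut.conj α).toMonoidHom =
        A.map (MulAut.conj α).toMonoidHom ⊓ Subgroup.centralizer {φ} := by
      ext y
      constructor
      · rintro ⟨z, ⟨hz1, hz2⟩, rfl⟩
        refine ⟨⟨z, hz1, rfl⟩, ?_⟩
        have hz2' := Subgroup.mem_centralizer_singleton_iff.1 hz2
        apply Subgroup.mem_centralizer_singleton_iff.2
        show α * z * α⁻¹ * φ = φ * (α * z * α⁻¹)
        rw [← e]
        have e1 : α * x * α⁻¹ * (α * z * α⁻¹) = α * (x * z) * α⁻¹ := by group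
        rw [e1, ← hz2']; group
      · rintro ⟨⟨z, hz1, rfl⟩, hy2⟩
        have hy2' := Subgroup.mem_centralizer_singleton_iff.1 hy2
        refine ⟨z, ⟨hz1, ?_⟩, rfl⟩
        apply Subgroup.mem_centralizer_singleton_iff.2
        have hy3 : α * z * α⁻¹ * φ = φ * (α * z * α⁻¹) := hy2'
        rw [← e] at hy3
        have e1 : z * x = α⁻¹ * (α * z * α⁻¹ * (α * x * α⁻¹)) * α := by group
        rw [e1, hy3]; group
    exact pPrimeCore_ne_bot_congr
      (((MulAut.conj α).subgroupMap _).trans (MulEquiv.subgroupCongr h)) p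
  · refine Nat.card_congr (Equiv.subtypeEquiv α.toEquiv (fun k => ?_))
    show x k = k ↔ φ (α k) = α k
    rw [← e]
    simp [MulAut.mul_apply]

theorem localBalance [Finite K] (hZ : Function.Injective (MulAut.conj : K →* MulAut K))
    (A : Subgroup (MulAut K)) (hinn : ∀ k, MulAut.conj k ∈ A) (p : ℕ) [hp : Fact p.Prime]
    (φ : MulAut K) (L : Subgroup K)
    (hLfix : ∀ k ∈ L, φ k = k)
    (hLnorm : ∀ k, φ k = k → ∀ l ∈ L, k * l * k⁻¹ ∈ L)
    (hne : ∃ k, φ k = k ∧ k ≠ 1)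
    (hb : p ∣ Nat.card ↥(MonoidHom.eqLocus φ.toMonoidHom (MonoidHom.id K)) →
      ∀ M : Subgroup K, M ≤ L → (∀ l ∈ L, ∀ k ∈ M, l * k * l⁻¹ ∈ M) → M ≠ ⊥ → p ∣ Nat.card M)
    (hc : ∀ n : MulAut K, (∀ k ∈ L, n k = k) → n ^ p = 1) :
    Cfsg.pPrimeCore p ↥(A ⊓ Subgroup.centralizer {φ}) ≠ ⊥ ↔
      Nat.Coprime p (Nat.card ↥(MonoidHom.eqLocus φ.toMonoidHom (MonoidHom.id K))) := by
  have hfin : Finite (MulAut K) := Finite.of_injective (fun e => (e : K → K)) DFunLike.coe_injective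
  set C := A ⊓ Subgroup.centralizer {φ} with hC
  set Fx := MonoidHom.eqLocus φ.toMonoidHom (MonoidHom.id K) with hFx
  have hmemFx : ∀ k, k ∈ Fx ↔ φ k = k := fun k => Iff.rfl
  have hcomm : ∀ c ∈ C, ∀ k, φ (c k) = c (φ k) := by
    intro c hc k
    have := Subgroup.mem_centralizer_singleton_iff.1 hc.2
    exact (congrArg (fun f : MulAut K => f k) this).symm
  have hconjC : ∀ k, φ k = k → MulAut.conj k ∈ C := by
    intro k hk
    refine ⟨hinn k, Subgroup.mem_centralizer_singleton_iff.2 ?_⟩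
    have := conj_conj φ k
    rw [hk, mul_inv_eq_iff_eq_mul] at this
    exact this.symm
  rw [pPrimeCore_ne_bot_iff]
  constructor
  · rintro ⟨N, hN, hcop, hne'⟩
    by_contra hdvd
    have hdvd' : p ∣ Nat.card Fx := by
      by_contra h
      exact hdvd ((Nat.Prime.coprime_iff_not_dvd hp.out).2 h)
    apply hne'
    set N' : Subgroup (MulAut K) := N.map C.subtype with hN'
    have hN'C : N' ≤ C := by
      rintro _ ⟨n, -, rfl⟩
      exact n.2
    have hcard : Nat.card N' = Nat.card N :=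
      Subgroup.card_map_of_injective (Subgroup.subtype_injective C)
    have hnorm : ∀ c ∈ C, ∀ n ∈ N', c * n * c⁻¹ ∈ N' := by
      rintro c hc _ ⟨n, hn, rfl⟩
      exact ⟨⟨c, hc⟩ * n * ⟨c, hc⟩⁻¹, hN.conj_mem n hn ⟨c, hc⟩, rfl⟩
    -- the trace on `L`
    set M : Subgroup K := N'.comap (MulAut.conj : K →* MulAut K) ⊓ L with hM
    have hMbot : M = ⊥ := by
      by_contra hMne
      have h1 := hb hdvd' M inf_le_right (by
        rintro l hl k ⟨hk1, hk2⟩
        refine ⟨?_, L.mul_mem (L.mul_mem hl hk2) (L.inv_mem hl)⟩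
        show MulAut.conj (l * k * l⁻¹) ∈ N'
        rw [map_mul, map_mul, map_inv]
        exact hnorm _ (hconjC l (hLfix l hl)) _ hk1) hMne
      have h2 : Nat.card M ∣ Nat.card N' := by
        rw [← Subgroup.card_map_of_injective (K := M) (f := (MulAut.conj : K →* MulAut K)) hZ]
        apply Subgroup.card_dvd_of_le
        rintro _ ⟨k, hk, rfl⟩
        exact hk.1
      rw [hcard] at h2
      have h3 : p ∣ Nat.gcd (Nat.card N) p := Nat.dvd_gcd (h1.trans h2) dvd_rfl
      rw [hcop] at h3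
      exact hp.out.one_lt.ne' (Nat.dvd_one.1 h3)
    have hcommN : ∀ n ∈ N', ∀ k, φ k = k → MulAut.conj (n k * k⁻¹) ∈ N' := by
      intro n hn k hk
      rw [map_mul, map_inv, ← conj_conj n k]
      have h1 := hnorm _ (hconjC k hk) _ (N'.inv_mem hn)
      have e1 : n * MulAut.conj k * n⁻¹ * (MulAut.conj k)⁻¹ =
          n * (MulAut.conj k * n⁻¹ * (MulAut.conj k)⁻¹) := by group
      rw [e1]
      exact N'.mul_mem hn h1
    have hX : ∀ n ∈ N', (∀ k ∈ L, n k ∈ L) → n = 1 := by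
      intro n hn hnL
      have h1 : ∀ k ∈ L, n k = k := by
        intro k hk
        have h2 : n k * k⁻¹ ∈ M := ⟨hcommN n hn k (hLfix k hk), L.mul_mem (hnL k hk) (L.inv_mem hk)⟩
        rw [hMbot, Subgroup.mem_bot] at h2
        exact mul_inv_eq_one.1 h2
      have h2 := hc n h1
      have h3 : orderOf n ∣ p := orderOf_dvd_of_pow_eq_one h2
      have h4 : orderOf n ∣ Nat.card N' := by
        have := orderOf_dvd_natCard (⟨n, hn⟩ : N')
        rwa [Subgroup.orderOf_mk] at this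
      rw [hcard] at h4
      have h5 : orderOf n ∣ Nat.gcd (Nat.card N) p := Nat.dvd_gcd h4 h3
      rw [hcop] at h5
      exact orderOf_eq_one_iff.1 (Nat.dvd_one.1 h5)
    have hS1 : ∀ k, φ k = k → MulAut.conj k ∈ N' → k = 1 := by
      intro k hk hkN
      have := hX _ hkN (fun l hl => hLnorm k hk l hl)
      rw [← map_one (MulAut.conj : K →* MulAut K)] at this
      exact hZ this
    have hS2 : ∀ n ∈ N', n = 1 := by
      intro n hn
      apply hX n hn
      intro k hk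
      have hk' := hLfix k hk
      have h1 : n k * k⁻¹ = 1 := by
        apply hS1 _ _ (hcommN n hn k hk')
        rw [map_mul, map_inv, hcomm n (hN'C hn), hk']
      rw [mul_inv_eq_one.1 h1]
      exact hk
    rw [eq_bot_iff]
    intro n hn
    have := hS2 n.1 ⟨n, hn, rfl⟩
    exact Subtype.ext this
  · intro hcop
    have hle : Fx.map (MulAut.conj : K →* MulAut K) ≤ C := by
      rintro _ ⟨k, hk, rfl⟩
      exact hconjC k hk
    refine ⟨(Fx.map (MulAut.conj : K →* MulAut K)).subgroupOf C, ?_, ?_, ?_⟩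
    · constructor
      rintro ⟨n, hn⟩ ⟨k, hk, hkn⟩ ⟨c, hc⟩
      refine ⟨c k, ?_, ?_⟩
      · show φ (c k) = c k
        rw [hcomm c hc, (hmemFx k).1 hk]
      · show MulAut.conj (c k) = c * n * c⁻¹
        rw [← conj_conj]
        congr 2
    · rw [Nat.card_congr (Subgroup.subgroupOfEquivOfLe hle).toEquiv,
        Subgroup.card_map_of_injective hZ]
      exact hcop.symm
    · obtain ⟨k, hk, hk1⟩ := hne
      intro h
      have h1 : (⟨MulAut.conj k, hconjC k hk⟩ : C) ∈
          (Fx.map (MulAut.conj : K →* MulAut K)).subgroupOf C := ⟨k, hk, rfl⟩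
      rw [h, Subgroup.mem_bot] at h1
      have h2 : MulAut.conj k = 1 := congrArg Subtype.val h1
      rw [← map_one (MulAut.conj : K →* MulAut K)] at h2
      exact hk1 (hZ h2)

end Cfsg.Agent.Lib.Helper98.LB
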