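import Mathlib

/-!
# Arithmetic lemmas for `S5890` (maximal subgroups of `PGL₂(q)` meet `PSL₂(q)` maximally)
-/

set_option autoImplicit false

namespace Cfsg.Agent.Lib.Helper98.PGLm

theorem two_mul_le_of_dvd_lt {k x : ℕ} (hd : k ∣ x) (hlt : k < x) : 2 * k ≤ x := by
  obtain ⟨t, rfl⟩ := hd
  have ht : 2 ≤ t := by
    by_contra h
    have : t = 0 ∨ t = 1 := by omega
    rcases this with rfl | rfl <;> simp at hlt
  calc 2 * k = k * 2 := by ring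
    _ ≤ k * t := Nat.mul_le_mul_left _ ht

theorem sq_sub_one (u : ℕ) (hu : 1 ≤ u) : u ^ 2 - 1 = (u - 1) * (u + 1) := by
  obtain ⟨t, rfl⟩ : ∃ t, u = t + 1 := ⟨u - 1, by omega⟩
  simp only [Nat.add_sub_cancel]
  have : (t + 1) ^ 2 = t * (t + 1 + 1) + 1 := by ring
  omega

/-- `u² - 1` does not divide `2 (u^r - 1)` for odd `r`. -/
theorem no_dvd (u r : ℕ) (hu : 2 ≤ u) (hr : Odd r) : ¬ (u ^ 2 - 1) ∣ 2 * (u ^ r - 1) := by
  obtain ⟨j, rfl⟩ := hr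
  intro h
  have h1 : u ^ 2 - 1 ∣ (u ^ 2) ^ j - 1 := Nat.sub_one_dvd_pow_sub_one _ _
  have hpos : 1 ≤ (u ^ 2) ^ j := Nat.one_le_pow _ _ (by positivity)
  have h2 : 2 * (u ^ (2 * j + 1) - 1) = 2 * u * ((u ^ 2) ^ j - 1) + 2 * (u - 1) := by
    have e1 : u ^ (2 * j + 1) = u * (u ^ 2) ^ j := by rw [pow_succ, pow_mul]; ring
    rw [e1]
    obtain ⟨w, hw⟩ : ∃ w, (u ^ 2) ^ j = w + 1 := ⟨(u ^ 2) ^ j - 1, by omega⟩
    rw [hw]
    obtain ⟨t, rfl⟩ : ∃ t, u = t + 1 := ⟨u - 1, by omega⟩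
    simp only [Nat.add_sub_cancel]
    have : (t + 1) * (w + 1) - 1 = (t + 1) * w + t := by
      have : (t + 1) * (w + 1) = (t + 1) * w + t + 1 := by ring
      omega
    rw [this]; ring
  rw [h2] at h
  have h3 : u ^ 2 - 1 ∣ 2 * (u - 1) := (Nat.dvd_add_right (Dvd.dvd.mul_left h1 _)).1 h
  have h4 := Nat.le_of_dvd (by omega) h3
  rw [sq_sub_one u (by omega)] at h4
  have h5 : (u - 1) * 3 ≤ (u - 1) * (u + 1) := Nat.mul_le_mul_left _ (by omega)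
  omega

theorem coprime_sq_sub_one (u : ℕ) (hu : 1 ≤ u) : Nat.Coprime (u ^ 2 - 1) u := by
  have h : u ^ 2 - 1 + 1 = u * u := by
    have : 1 ≤ u ^ 2 := Nat.one_le_pow _ _ hu
    rw [Nat.sub_add_cancel this]; ring
  have h1 : Nat.gcd (u ^ 2 - 1) u ∣ 1 := by
    have ha : Nat.gcd (u ^ 2 - 1) u ∣ u ^ 2 - 1 := Nat.gcd_dvd_left _ _
    have hb : Nat.gcd (u ^ 2 - 1) u ∣ u * u := Dvd.dvd.mul_left (Nat.gcd_dvd_right _ _) _
    rw [← h] at hb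
    exact (Nat.dvd_add_right ha).1 hb
  exact Nat.dvd_one.1 h1

/-- the key non-divisibility: `u (u² - 1)` does not divide `2 v (q - 1)` if `v ∣ q = u ^ r`,
`r` odd. -/
theorem no_dvd' (u r v : ℕ) (hu : 2 ≤ u) (hr : Odd r) (hv : v ∣ u ^ r) :
    ¬ u * (u ^ 2 - 1) ∣ 2 * (v * (u ^ r - 1)) := by
  intro h
  have h1 : u ^ 2 - 1 ∣ v * (2 * (u ^ r - 1)) := by
    have : u ^ 2 - 1 ∣ 2 * (v * (u ^ r - 1)) := (Dvd.intro_left _ rfl).trans h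
    have e : v * (2 * (u ^ r - 1)) = 2 * (v * (u ^ r - 1)) := by ring
    rwa [e]
  have hc : Nat.Coprime (u ^ 2 - 1) v :=
    Nat.Coprime.coprime_dvd_right hv (Nat.Coprime.pow_right r (coprime_sq_sub_one u (by omega)))
  exact no_dvd u r hu hr (hc.dvd_of_dvd_mul_left h1)

theorem dvd_of_pow_sub_one_dvd (p m n : ℕ) (hp : 2 ≤ p)
    (h : p ^ m - 1 ∣ p ^ n - 1) : m ∣ n := by
  have h1 := Nat.pow_sub_one_gcd_pow_sub_one p m n
  rw [Nat.gcd_eq_left h] at h1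
  have h2 : p ^ m = p ^ Nat.gcd m n := by
    have a1 : 1 ≤ p ^ m := Nat.one_le_pow _ _ (by omega)
    have a2 : 1 ≤ p ^ Nat.gcd m n := Nat.one_le_pow _ _ (by omega)
    omega
  have h3 : m = Nat.gcd m n := Nat.pow_right_injective hp h2
  rw [h3]
  exact Nat.gcd_dvd_right _ _

/-- orders of `PSL₂(p^a)` and `PSL₂(p^b)`: divisibility forces `a ∣ b`. -/
theorem exp_dvd (p a b : ℕ) (hp : p.Prime) (ha : a ≠ 0)
    (h : p ^ a * ((p ^ a) ^ 2 - 1) ∣ p ^ b * ((p ^ b) ^ 2 - 1)) : a ∣ b := by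
  have h1 : (p ^ a) ^ 2 - 1 ∣ p ^ b * ((p ^ b) ^ 2 - 1) := (Dvd.intro_left _ rfl).trans h
  have hc : Nat.Coprime ((p ^ a) ^ 2 - 1) (p ^ b) := by
    have h0 := coprime_sq_sub_one (p ^ a) (Nat.one_le_pow _ _ hp.pos)
    have h2 : Nat.Coprime ((p ^ a) ^ 2 - 1) p :=
      Nat.Coprime.coprime_dvd_right (dvd_pow_self p ha) h0
    exact Nat.Coprime.pow_right b h2
  have h2 := hc.dvd_of_dvd_mul_left h1
  rw [← pow_mul, ← pow_mul] at h2
  have h3 := dvd_of_pow_sub_one_dvd p _ _ hp.two_le h2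
  exact Nat.dvd_of_mul_dvd_mul_right (by norm_num) h3

/-- `u ^ r = v ^ s`, `r s` primes, `u v` powers of `p`, `|PSL₂(u)|` divides `|PSL₂(v)|`:
then `u = v`. -/
theorem base_eq (p a b r s : ℕ) (hp : p.Prime) (ha : a ≠ 0) (hr : r.Prime) (hs : s.Prime)
    (hq : (p ^ a) ^ r = (p ^ b) ^ s)
    (h : p ^ a * ((p ^ a) ^ 2 - 1) ∣ p ^ b * ((p ^ b) ^ 2 - 1)) : a = b := by
  obtain ⟨t, rfl⟩ := exp_dvd p a b hp ha h
  rw [← pow_mul, ← pow_mul] at hq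
  have h1 : a * r = a * t * s := Nat.pow_right_injective hp.two_le hq
  have h2 : r = t * s := by
    have : a * r = a * (t * s) := by rw [h1]; ring
    exact Nat.eq_of_mul_eq_mul_left (Nat.pos_of_ne_zero ha) this
  have h3 : s ∣ r := ⟨t, by rw [h2]; ring⟩
  have h4 : s = r := (Nat.prime_dvd_prime_iff_eq hs hr).1 h3
  subst h4
  have h5 : t = 1 := by
    have : 1 * s = t * s := by rw [one_mul]; exact h2
    exact (Nat.eq_of_mul_eq_mul_right hs.pos this).symm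
  rw [h5, mul_one]

theorem mul_pred_eq (q : ℕ) (hq : 2 ≤ q) : q * (q - 1) = (q + 1) * (q - 2) + 2 := by
  obtain ⟨t, rfl⟩ : ∃ t, q = t + 2 := ⟨q - 2, by omega⟩
  have e1 : t + 2 - 1 = t + 1 := by omega
  have e2 : t + 2 - 2 = t := by omega
  rw [e1, e2]; ring

theorem cube_le (v s : ℕ) (hv : 1 ≤ v) (hs : 3 ≤ s) : v * (v ^ 2 - 1) ≤ v ^ s := by
  calc v * (v ^ 2 - 1) ≤ v * v ^ 2 := Nat.mul_le_mul_left _ (Nat.sub_le _ _)
    _ = v ^ 3 := by ring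
    _ ≤ v ^ s := Nat.pow_le_pow_right hv hs

end Cfsg.Agent.Lib.Helper98.PGLm
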