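import Cfsg.Agent.S5891
import Cfsg.Agent.S5892
import Cfsg.Agent.Lib.Helper98.PGLmA

/-!
# Profiles of the maximal subgroups of `PGL₂(q)` and `PSL₂(q)` (for `S5890`)
-/

set_option autoImplicit false
set_option linter.style.haveILetI false

namespace Cfsg.Agent.Lib.Helper98.PGLm

open Cfsg.Agent.Lib.Helper41 Cfsg.Agent.Lib.Helper41.Dickson

theorem dihedral_sq_comm (n : ℕ) (x y : DihedralGroup n) : x ^ 2 * y ^ 2 = y ^ 2 * x ^ 2 := by
  cases x <;> cases y <;> simp [sq, add_comm]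

theorem sq_comm_of_equiv {G : Type*} [Group G] (X : Subgroup G) (n : ℕ)
    (e : X ≃* DihedralGroup n) (a b : G) (ha : a ∈ X) (hb : b ∈ X) :
    a ^ 2 * b ^ 2 = b ^ 2 * a ^ 2 := by
  have h := dihedral_sq_comm n (e ⟨a, ha⟩) (e ⟨b, hb⟩)
  rw [← map_pow, ← map_pow, ← map_mul, ← map_mul] at h
  have h2 := congrArg Subtype.val (e.injective h)
  simpa using h2

theorem coatom_subgroupOf {G : Type*} [Group G] (K R : Subgroup G) (hKR : K ≤ R) (hne : K ≠ R)
    (h : ∀ X : Subgroup G, K ≤ X → X ≤ R → X = K ∨ X = R) : IsCoatom (K.subgroupOf R) := by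
  constructor
  · intro htop
    exact hne (le_antisymm hKR (Subgroup.subgroupOf_eq_top.1 htop))
  · intro b hb
    have hle : b.map R.subtype ≤ R := by
      rintro _ ⟨x, -, rfl⟩
      exact x.2
    have hK : K ≤ b.map R.subtype := by
      intro x hx
      exact ⟨⟨x, hKR hx⟩, hb.le (by simpa [Subgroup.mem_subgroupOf] using hx), rfl⟩
    rcases h _ hK hle with h1 | h1
    · exfalso
      apply hb.not_ge
      intro x hx
      have : (x : G) ∈ b.map R.subtype := ⟨x, hx, rfl⟩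
      rw [h1] at this
      simpa [Subgroup.mem_subgroupOf] using this
    · rw [eq_top_iff]
      intro x _
      have : (x : G) ∈ b.map R.subtype := by rw [h1]; exact x.2
      obtain ⟨y, hy, hyx⟩ := this
      have : y = x := Subtype.ext hyx
      rwa [← this]

variable {F : Type*} [Field F] [Fintype F]

local notation "PSL2" => Matrix.ProjectiveSpecialLinearGroup (Fin 2) F
local notation "PGL2" => Matrix.ProjGenLinGroup (Fin 2) F
local notation "τ" => (Matrix.ProjectiveSpecialLinearGroup.toPGL (n := Fin 2) (R := F))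

theorem exists_sq_preimage (hodd : Odd (Fintype.card F)) (M : Subgroup PGL2) (c : PGL2)
    (hc : c ∈ M) : ∃ y : PSL2, y ∈ M.comap τ ∧ τ y = c ^ 2 := by
  have hidx := index_range_toPGL F (by rw [Nat.card_eq_fintype_card]; exact hodd)
  obtain ⟨y, hy⟩ := Subgroup.sq_mem_of_index_two hidx c
  refine ⟨y, ?_, hy⟩
  rw [Subgroup.mem_comap, hy]
  exact M.pow_mem hc 2

theorem exists_half_order (hodd : Odd (Fintype.card F)) (M : Subgroup PGL2) (n : ℕ)
    (hn : Even n) (e : M ≃* DihedralGroup n) :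
    ∃ y : PSL2, y ∈ M.comap τ ∧ 2 * orderOf y = n := by
  obtain ⟨c, hcM, hc, -⟩ := dihedral_rot M n e
  obtain ⟨y, hyM, hy⟩ := exists_sq_preimage hodd M c hcM
  refine ⟨y, hyM, ?_⟩
  have hinj := Matrix.ProjectiveSpecialLinearGroup.toPGL_injective (n := Fin 2) (R := F)
  rw [← orderOf_injective τ hinj y, hy, orderOf_pow' c (by norm_num), hc]
  obtain ⟨j, rfl⟩ := hn
  have : Nat.gcd (j + j) 2 = 2 := by
    have : j + j = 2 * j := by ring
    rw [this]; simp
  rw [this]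
  omega

theorem exists_noncomm_sq (hodd : Odd (Fintype.card F)) (M : Subgroup PGL2)
    (e : M ≃* Equiv.Perm (Fin 4)) :
    ∃ a b : PSL2, a ∈ M.comap τ ∧ b ∈ M.comap τ ∧ a ^ 2 * b ^ 2 ≠ b ^ 2 * a ^ 2 := by
  set s₁ : Equiv.Perm (Fin 4) := c[0, 1, 2] with hs₁
  set s₂ : Equiv.Perm (Fin 4) := c[1, 2, 3] with hs₂
  have h1 : s₁ ^ 4 = s₁ := by rw [hs₁]; decide
  have h2 : s₂ ^ 4 = s₂ := by rw [hs₂]; decide
  have h3 : s₁ * s₂ ≠ s₂ * s₁ := by rw [hs₁, hs₂]; decide
  obtain ⟨a, haM, ha⟩ := exists_sq_preimage hodd M (e.symm s₁ : M) (e.symm s₁).2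
  obtain ⟨b, hbM, hb⟩ := exists_sq_preimage hodd M (e.symm s₂ : M) (e.symm s₂).2
  refine ⟨a, b, haM, hbM, fun hab => h3 ?_⟩
  have ha2 : τ (a ^ 2) = ((e.symm s₁ : M) : PGL2) := by
    rw [map_pow, ha, ← pow_mul, ← Subgroup.coe_pow, ← map_pow]
    norm_num [h1]
  have hb2 : τ (b ^ 2) = ((e.symm s₂ : M) : PGL2) := by
    rw [map_pow, hb, ← pow_mul, ← Subgroup.coe_pow, ← map_pow]
    norm_num [h2]
  have h4 := congrArg τ hab
  rw [map_mul, map_mul, ha2, hb2, ← Subgroup.coe_mul, ← Subgroup.coe_mul, ← map_mul,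
    ← map_mul] at h4
  exact e.symm.injective (Subtype.ext h4)

/-- profile of a maximal subgroup of `PGL₂(q)` not containing `PSL₂(q)`, in terms of its
intersection `K` with `PSL₂(q)` -/
theorem profileM (hodd : Odd (Fintype.card F)) (h3 : 3 < Fintype.card F) (M : Subgroup PGL2)
    (hM : IsCoatom M) (hML : ¬ (τ).range ≤ M) :
    2 * Nat.card (M.comap τ) = Fintype.card F * (Fintype.card F - 1) ∨
    (Fintype.card F ≠ 5 ∧ Nat.card (M.comap τ) = Fintype.card F - 1 ∧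
      ∃ y : PSL2, y ∈ M.comap τ ∧ 2 * orderOf y = Fintype.card F - 1) ∨
    (Nat.card (M.comap τ) = Fintype.card F + 1 ∧
      ∃ y : PSL2, y ∈ M.comap τ ∧ 2 * orderOf y = Fintype.card F + 1) ∨
    ((Fintype.card F).Prime ∧ (Fintype.card F % 8 = 3 ∨ Fintype.card F % 8 = 5) ∧
      Nat.card (M.comap τ) = 12 ∧
      ∃ a b : PSL2, a ∈ M.comap τ ∧ b ∈ M.comap τ ∧ a ^ 2 * b ^ 2 ≠ b ^ 2 * a ^ 2) ∨
    (∃ u r : ℕ, r.Prime ∧ Odd r ∧ Fintype.card F = u ^ r ∧
      2 * Nat.card (M.comap τ) = u * (u ^ 2 - 1)) := by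
  classical
  haveI := finite_pgl2 (F := F)
  have hidx := index_range_toPGL F (by rw [Nat.card_eq_fintype_card]; exact hodd)
  have hinj := Matrix.ProjectiveSpecialLinearGroup.toPGL_injective (n := Fin 2) (R := F)
  haveI : IsSimpleGroup (Matrix.ProjectiveSpecialLinearGroup (Fin 2) F) :=
    Matrix.ProjectiveSpecialLinearGroup.rank_two_simple (by
      rw [Nat.card_eq_fintype_card]; omega)
  have hcard := card_eq_two_mul_comap _ hidx M hM hML hinj
  have hML' : ¬ (Matrix.ProjGenLinGroup.mk.comp Matrix.SpecialLinearGroup.toGL).range ≤ M := by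
    intro h
    apply hML
    rintro _ ⟨X, rfl⟩
    induction X using QuotientGroup.induction_on with
    | H X => exact h ⟨X, rfl⟩
  obtain ⟨j, hj⟩ := hodd
  rcases Cfsg.Agent.S5891.result ⟨j, hj⟩ h3 M hM hML' with h | ⟨h5, ⟨e⟩⟩ | ⟨⟨e⟩⟩ |
    ⟨hp, h8, ⟨e⟩⟩ | ⟨F₀, _, _, r, hr, hro, hq, ⟨e⟩⟩
  · left
    rw [← hcard, h]
  · right; left
    have hc : Nat.card M = 2 * (Fintype.card F - 1) := by
      rw [Nat.card_congr e.toEquiv, DihedralGroup.nat_card]
    exact ⟨h5, by omega, exists_half_order ⟨j, hj⟩ M _ ⟨j, by omega⟩ e⟩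
  · right; right; left
    have hc : Nat.card M = 2 * (Fintype.card F + 1) := by
      rw [Nat.card_congr e.toEquiv, DihedralGroup.nat_card]
    exact ⟨by omega, exists_half_order ⟨j, hj⟩ M _ ⟨j + 1, by omega⟩ e⟩
  · right; right; right; left
    have hc : Nat.card M = 24 := by
      rw [Nat.card_congr e.toEquiv, natCard_perm_four]
    exact ⟨hp, h8, by omega, exists_noncomm_sq ⟨j, hj⟩ M e⟩
  · right; right; right; right
    refine ⟨Fintype.card F₀, r, hr, hro, hq, ?_⟩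
    rw [← hcard, Nat.card_congr e.toEquiv, natCard_PGL2, Nat.card_eq_fintype_card]

end Cfsg.Agent.Lib.Helper98.PGLm
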