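import Cfsg.Agent.Lib.Helper98.PGLmB

/-!
# Profile of the maximal subgroups of `PSL₂(q)` and the comparison (for `S5890`)
-/

set_option autoImplicit false
set_option linter.style.haveILetI false

namespace Cfsg.Agent.Lib.Helper98.PGLm

open Cfsg.Agent.Lib.Helper41 Cfsg.Agent.Lib.Helper41.Dickson

variable {F : Type*} [Field F] [Fintype F]

local notation "PSL2" => Matrix.ProjectiveSpecialLinearGroup (Fin 2) F
local notation "PGL2" => Matrix.ProjGenLinGroup (Fin 2) F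
local notation "τ" => (Matrix.ProjectiveSpecialLinearGroup.toPGL (n := Fin 2) (R := F))

theorem pgl2_order_le (K : Type) [Field K] [Fintype K] (x : Matrix.ProjGenLinGroup (Fin 2) K) :
    orderOf x ≤ Fintype.card K + 1 := by
  obtain ⟨p, hp, hchar⟩ := exists_char_prime K
  haveI : Fact p.Prime := ⟨hp⟩
  haveI := hchar
  have h2 : 2 ≤ Fintype.card K := Fintype.one_lt_card
  rcases pgl2_orderOf_dvd p x with h | h | h
  · have h1 : p ∣ Fintype.card K :=
      (CharP.cast_eq_zero_iff K p (Fintype.card K)).1 (Nat.cast_card_eq_zero K)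
    have := Nat.le_of_dvd hp.pos h
    have := Nat.le_of_dvd (by omega) h1
    omega
  · have := Nat.le_of_dvd (by omega) h
    omega
  · exact Nat.le_of_dvd (by omega) h

theorem profileX (p : ℕ) [Fact p.Prime] [CharP F p] (hodd : Odd (Fintype.card F))
    (h5 : 5 ≤ Fintype.card F) (X : Subgroup PSL2) (hX : IsCoatom X) :
    2 * Nat.card X = Fintype.card F * (Fintype.card F - 1) ∨
    ((Nat.card X = Fintype.card F - 1 ∨ Nat.card X = Fintype.card F + 1) ∧
      ∀ a b : PSL2, a ∈ X → b ∈ X → a ^ 2 * b ^ 2 = b ^ 2 * a ^ 2) ∨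
    (∃ v : ℕ, 2 ≤ v ∧ Fintype.card F = v ^ 2 ∧ Nat.card X = v * (v ^ 2 - 1) ∧
      ∀ y : PSL2, y ∈ X → orderOf y ≤ v + 1) ∨
    (∃ v s : ℕ, s.Prime ∧ Odd s ∧ Fintype.card F = v ^ s ∧ 2 * Nat.card X = v * (v ^ 2 - 1)) ∨
    ((Fintype.card F % 10 = 1 ∨ Fintype.card F % 10 = 9) ∧
      (Fintype.card F = p ∨ Fintype.card F = p ^ 2) ∧ Nat.card X = 60 ∧
      ∀ y : PSL2, y ∈ X → orderOf y ∣ 2 ∨ orderOf y ∣ 3 ∨ orderOf y ∣ 5) ∨
    (Fintype.card F = p ∧ Nat.card X = 12 ∧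
      (∀ y : PSL2, y ∈ X → orderOf y ∣ 2 ∨ orderOf y ∣ 3) ∧
      ∀ N : Subgroup PSL2, N ≤ X → Nat.card X ≠ 2 * Nat.card N) ∨
    (Fintype.card F = p ∧ (p % 8 = 1 ∨ p % 8 = 7) ∧ Nat.card X = 24 ∧
      ∀ y : PSL2, y ∈ X → orderOf y ∣ 2 ∨ orderOf y ∣ 3 ∨ orderOf y ∣ 4) := by
  classical
  rcases Cfsg.Agent.S5892.result p hodd h5 X hX with h | ⟨-, k, hk, ⟨e⟩⟩ | ⟨-, -, k, hk, ⟨e⟩⟩ |
    ⟨F₀, _, _, hq, ⟨e⟩⟩ | ⟨F₀, _, _, s, hs, hso, hq, ⟨e⟩⟩ | ⟨h10, hqp, ⟨e⟩⟩ | ⟨hqp, -, -, ⟨e⟩⟩ |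
    ⟨hqp, h8, ⟨e⟩⟩
  · exact Or.inl h
  · right; left
    refine ⟨Or.inl ?_, fun a b ha hb => sq_comm_of_equiv X k e a b ha hb⟩
    rw [Nat.card_congr e.toEquiv, DihedralGroup.nat_card, hk]
  · right; left
    refine ⟨Or.inr ?_, fun a b ha hb => sq_comm_of_equiv X k e a b ha hb⟩
    rw [Nat.card_congr e.toEquiv, DihedralGroup.nat_card, hk]
  · right; right; left
    refine ⟨Fintype.card F₀, Fintype.one_lt_card, hq, ?_, fun y hy => ?_⟩
    · rw [Nat.card_congr e.toEquiv, natCard_PGL2, Nat.card_eq_fintype_card]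
    · have := pgl2_order_le F₀ (e ⟨y, hy⟩)
      rwa [e.orderOf_eq, Subgroup.orderOf_mk] at this
  · right; right; right; left
    refine ⟨Fintype.card F₀, s, hs, hso, hq, ?_⟩
    have h1 := natCard_PSL2 F₀
    rw [Nat.card_eq_fintype_card] at h1
    have hodd0 : Odd (Fintype.card F₀) := by
      rw [hq] at hodd
      rcases Nat.even_or_odd (Fintype.card F₀) with he | ho
      · exact absurd (he.pow_of_ne_zero hs.ne_zero) (Nat.not_even_iff_odd.2 hodd)
      · exact ho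
    have hg : Nat.gcd 2 (Fintype.card F₀ - 1) = 2 := by
      obtain ⟨a, ha⟩ := hodd0
      rw [ha]; simp
    rw [hg] at h1
    rw [Nat.card_congr e.toEquiv, h1]
  · right; right; right; right; left
    refine ⟨h10, ?_, ?_, fun y hy => ?_⟩
    · rcases hqp with h | ⟨h, -⟩
      · exact Or.inl h
      · exact Or.inr h
    · rw [Nat.card_congr e.toEquiv, natCard_alt_five]
    · have := orderOf_of_alt_five e ⟨y, hy⟩
      rwa [Subgroup.orderOf_mk] at this
  · right; right; right; right; right; left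
    refine ⟨hqp, ?_, fun y hy => ?_, fun N hN hc => ?_⟩
    · rw [Nat.card_congr e.toEquiv, natCard_alt_four]
    · have := orderOf_of_alt_four e ⟨y, hy⟩
      rwa [Subgroup.orderOf_mk] at this
    · exact no_index_two_of_alt N X hN e hc
  · right; right; right; right; right; right
    refine ⟨hqp, h8, ?_, fun y hy => ?_⟩
    · rw [Nat.card_congr e.toEquiv, natCard_perm_four]
    · have := orderOf_of_perm_four e ⟨y, hy⟩
      rwa [Subgroup.orderOf_mk] at this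

end Cfsg.Agent.Lib.Helper98.PGLm
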