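import Cfsg.Agent.Lib.Helper98.PGLmA

/-!
# The comparison of the two profiles (for `S5890`)
-/

set_option autoImplicit false
set_option linter.style.haveILetI false

namespace Cfsg.Agent.Lib.Helper98.PGLm

theorem odd_prime_three_le {s : ℕ} (hs : s.Prime) (hso : Odd s) : 3 ≤ s := by
  obtain ⟨j, hj⟩ := hso
  have := hs.two_le
  omega

theorem base_facts {q u r : ℕ} (h5 : 5 ≤ q) (hodd : Odd q) (hr : r ≠ 0) (hq : q = u ^ r) :
    3 ≤ u := by
  have h0 : u ≠ 0 := by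
    rintro rfl
    rw [zero_pow hr] at hq; omega
  have h1 : u ≠ 1 := by
    rintro rfl
    rw [one_pow] at hq; omega
  have h2 : u ≠ 2 := by
    rintro rfl
    rw [hq] at hodd
    exact absurd ((by decide : Even 2).pow_of_ne_zero hr) (Nat.not_even_iff_odd.2 hodd)
  omega

theorem exists_exp {q u r p n : ℕ} (hp : p.Prime) (hqp : q = p ^ n) (h5 : 5 ≤ q) (hr : r ≠ 0)
    (hq : q = u ^ r) : ∃ a : ℕ, a ≠ 0 ∧ u = p ^ a := by
  have h1 : u ∣ p ^ n := by rw [← hqp, hq]; exact dvd_pow_self u hr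
  obtain ⟨a, -, ha⟩ := (Nat.dvd_prime_pow hp).1 h1
  refine ⟨a, ?_, ha⟩
  rintro rfl
  rw [ha, pow_zero, one_pow] at hq
  omega

theorem not_small_exp {q u r p : ℕ} (hp : p.Prime) (hr : 3 ≤ r) (hq : q = u ^ r) {a : ℕ}
    (ha : a ≠ 0) (hu : u = p ^ a) : q ≠ p ∧ q ≠ p ^ 2 := by
  have h3 : 3 ≤ a * r := by
    have : 1 * 3 ≤ a * r := Nat.mul_le_mul (Nat.pos_of_ne_zero ha) hr
    omega
  rw [hu, ← pow_mul] at hq
  constructor
  · intro h
    have : p ^ (a * r) = p ^ 1 := by rw [← hq, h, pow_one]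
    have := Nat.pow_right_injective hp.two_le this
    omega
  · intro h
    have : p ^ (a * r) = p ^ 2 := by rw [← hq, h]
    have := Nat.pow_right_injective hp.two_le this
    omega

theorem compare {G : Type*} [Group G] (K X : Subgroup G) (hKX : K ≤ X) (q p n : ℕ)
    (hp : p.Prime) (hqp : q = p ^ n) (hodd : Odd q) (h5 : 5 ≤ q) (h7 : q ≠ 7) (h9 : q ≠ 9)
    (h11 : q ≠ 11) (h40 : q.Prime → q % 40 ∉ ({11, 19, 21, 29} : Finset ℕ))
    (hPM : 2 * Nat.card K = q * (q - 1) ∨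
      (q ≠ 5 ∧ Nat.card K = q - 1 ∧ ∃ y : G, y ∈ K ∧ 2 * orderOf y = q - 1) ∨
      (Nat.card K = q + 1 ∧ ∃ y : G, y ∈ K ∧ 2 * orderOf y = q + 1) ∨
      (q.Prime ∧ (q % 8 = 3 ∨ q % 8 = 5) ∧ Nat.card K = 12 ∧
        ∃ a b : G, a ∈ K ∧ b ∈ K ∧ a ^ 2 * b ^ 2 ≠ b ^ 2 * a ^ 2) ∨
      (∃ u r : ℕ, r.Prime ∧ Odd r ∧ q = u ^ r ∧ 2 * Nat.card K = u * (u ^ 2 - 1)))
    (hPX : 2 * Nat.card X = q * (q - 1) ∨
      ((Nat.card X = q - 1 ∨ Nat.card X = q + 1) ∧
        ∀ a b : G, a ∈ X → b ∈ X → a ^ 2 * b ^ 2 = b ^ 2 * a ^ 2) ∨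
      (∃ v : ℕ, 2 ≤ v ∧ q = v ^ 2 ∧ Nat.card X = v * (v ^ 2 - 1) ∧
        ∀ y : G, y ∈ X → orderOf y ≤ v + 1) ∨
      (∃ v s : ℕ, s.Prime ∧ Odd s ∧ q = v ^ s ∧ 2 * Nat.card X = v * (v ^ 2 - 1)) ∨
      ((q % 10 = 1 ∨ q % 10 = 9) ∧ (q = p ∨ q = p ^ 2) ∧ Nat.card X = 60 ∧
        ∀ y : G, y ∈ X → orderOf y ∣ 2 ∨ orderOf y ∣ 3 ∨ orderOf y ∣ 5) ∨
      (q = p ∧ Nat.card X = 12 ∧ (∀ y : G, y ∈ X → orderOf y ∣ 2 ∨ orderOf y ∣ 3) ∧
        ∀ N : Subgroup G, N ≤ X → Nat.card X ≠ 2 * Nat.card N) ∨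
      (q = p ∧ (p % 8 = 1 ∨ p % 8 = 7) ∧ Nat.card X = 24 ∧
        ∀ y : G, y ∈ X → orderOf y ∣ 2 ∨ orderOf y ∣ 3 ∨ orderOf y ∣ 4)) :
    Nat.card X ≤ Nat.card K := by
  by_contra hcon
  have hlt : Nat.card K < Nat.card X := by omega
  have hdvd : Nat.card K ∣ Nat.card X := Subgroup.card_dvd_of_le hKX
  have h2k := two_mul_le_of_dvd_lt hdvd hlt
  have hdvd2 : 2 * Nat.card K ∣ 2 * Nat.card X := Nat.mul_dvd_mul_left 2 hdvd
  generalize hkk : Nat.card K = k at *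
  generalize hx : Nat.card X = x at *
  have hq2 : q % 2 = 1 := Nat.odd_iff.1 hodd
  have hT : 5 * (q - 1) ≤ q * (q - 1) := Nat.mul_le_mul_right _ h5
  -- uniform bound on the orders in the last three cases
  have hsmall : ∀ o : ℕ, (o ∣ 2 ∨ o ∣ 3 ∨ o ∣ 5) → o ≤ 5 := by
    rintro o (h | h | h) <;> have := Nat.le_of_dvd (by norm_num) h <;> omega
  have hsmall3 : ∀ o : ℕ, (o ∣ 2 ∨ o ∣ 3) → o ≤ 3 := by
    rintro o (h | h) <;> have := Nat.le_of_dvd (by norm_num) h <;> omega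
  have hsmall4 : ∀ o : ℕ, (o ∣ 2 ∨ o ∣ 3 ∨ o ∣ 4) → o ≤ 4 := by
    rintro o (h | h | h) <;> have := Nat.le_of_dvd (by norm_num) h <;> omega
  have hsub : ∀ v s : ℕ, s.Prime → Odd s → q = v ^ s → v * (v ^ 2 - 1) ≤ q := by
    intro v s hs hso hq
    have hv := base_facts h5 hodd hs.ne_zero hq
    rw [hq]
    exact cube_le v s (by omega) (odd_prime_three_le hs hso)
  rcases hPM with hk | ⟨hq5, hk, y, hy, ho⟩ | ⟨hk, y, hy, ho⟩ | ⟨hqpr, h8, hk, a, b, ha, hb, hab⟩ |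
    ⟨u, r, hr, hro, hqu, hk⟩
  · -- Borel
    rcases hPX with hX | ⟨hX, -⟩ | ⟨v, hv, hqv, hX, -⟩ | ⟨v, s, hs, hso, hqv, hX⟩ |
      ⟨h10, -, hX, -⟩ | ⟨-, hX, -, -⟩ | ⟨hqp', h8, hX, -⟩
    · omega
    · omega
    · rw [← hqv] at hX
      have hvq : v < q := by rw [hqv]; nlinarith
      have : v * (q - 1) < q * (q - 1) := Nat.mul_lt_mul_of_pos_right hvq (by omega)
      omega
    · have := hsub v s hs hso hqv
      omega
    · have : 9 * (q - 1) ≤ q * (q - 1) := Nat.mul_le_mul_right _ (by omega)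
      omega
    · omega
    · have : 7 * (q - 1) ≤ q * (q - 1) := Nat.mul_le_mul_right _ (by omega)
      omega
  · -- dihedral of order `2 (q - 1)`
    have hyX := hKX hy
    rcases hPX with hX | ⟨hX, -⟩ | ⟨v, hv, hqv, hX, hord⟩ | ⟨v, s, hs, hso, hqv, hX⟩ |
      ⟨h10, -, hX, hord⟩ | ⟨-, hX, hord, -⟩ | ⟨hqp', h8, hX, hord⟩
    · obtain ⟨t, rfl⟩ := hdvd
      rw [hk] at hX
      have h1 : (q - 1) * (2 * t) = (q - 1) * q := by rw [← mul_comm q, ← hX]; ring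
      have := Nat.eq_of_mul_eq_mul_left (by omega) h1
      omega
    · rcases hX with hX | hX
      · omega
      · rw [hk, hX] at hdvd
        have h1 : q + 1 = (q - 1) + 2 := by omega
        rw [h1] at hdvd
        have h2 : q - 1 ∣ 2 := (Nat.dvd_add_right (dvd_refl _)).1 hdvd
        have := Nat.le_of_dvd (by norm_num) h2
        omega
    · have h1 := hord y hyX
      have h2 : v ≤ 3 := by
        by_contra h
        have : 4 * v ≤ v ^ 2 := by nlinarith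
        omega
      interval_cases v <;> omega
    · have := hsub v s hs hso hqv
      omega
    · have := hsmall _ (hord y hyX)
      omega
    · have := hsmall3 _ (hord y hyX)
      omega
    · have := hsmall4 _ (hord y hyX)
      omega
  · -- dihedral of order `2 (q + 1)`
    have hyX := hKX hy
    rcases hPX with hX | ⟨hX, -⟩ | ⟨v, hv, hqv, hX, hord⟩ | ⟨v, s, hs, hso, hqv, hX⟩ |
      ⟨h10, -, hX, hord⟩ | ⟨-, hX, hord, hno⟩ | ⟨hqp', h8, hX, hord⟩
    · have h1 : q + 1 ∣ q * (q - 1) := by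
        rw [← hX, ← hk]; exact Dvd.dvd.mul_left hdvd 2
      rw [mul_pred_eq q (by omega)] at h1
      have h2 : q + 1 ∣ 2 := (Nat.dvd_add_right (Dvd.intro _ rfl)).1 h1
      have := Nat.le_of_dvd (by norm_num) h2
      omega
    · omega
    · rw [hk, hX, hqv] at hdvd
      have h1 : v * (v ^ 2 + 1) = v * (v ^ 2 - 1) + 2 * v := by
        have : 1 ≤ v ^ 2 := Nat.one_le_pow _ _ (by omega)
        obtain ⟨w, hw⟩ : ∃ w, v ^ 2 = w + 1 := ⟨v ^ 2 - 1, by omega⟩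
        rw [hw]; simp only [Nat.add_sub_cancel]; ring
      have h2 : v ^ 2 + 1 ∣ 2 * v :=
        (Nat.dvd_add_right hdvd).1 (h1 ▸ Dvd.intro_left _ rfl)
      have := Nat.le_of_dvd (by omega) h2
      nlinarith
    · have := hsub v s hs hso hqv
      omega
    · have := hsmall _ (hord y hyX)
      omega
    · have := hsmall3 _ (hord y hyX)
      have h1 : q = 5 := by omega
      apply hno K hKX
      rw [hkk]
      omega
    · have := hsmall4 _ (hord y hyX)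
      omega
  · -- `S₄`
    rcases hPX with hX | ⟨-, hcomm⟩ | ⟨v, hv, hqv, hX, hord⟩ | ⟨v, s, hs, hso, hqv, hX⟩ |
      ⟨h10, -, hX, hord⟩ | ⟨-, hX, hord, hno⟩ | ⟨hqp', h8', hX, hord⟩
    · rw [hk] at hdvd
      obtain ⟨t, rfl⟩ := hdvd
      have h1 : (q * (q - 1)) % 8 = ((q % 8) * ((q - 1) % 8)) % 8 := Nat.mul_mod _ _ _
      rcases h8 with h8 | h8
      · have h2 : (q - 1) % 8 = 2 := by omega
        rw [h8, h2] at h1
        omega
      · have h2 : (q - 1) % 8 = 4 := by omega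
        rw [h8, h2] at h1
        omega
    · exact hab (hcomm a b (hKX ha) (hKX hb))
    · rw [hqv] at hqpr
      exact Nat.Prime.not_prime_pow (le_refl 2) hqpr
    · rw [hqv] at hqpr
      exact Nat.Prime.not_prime_pow hs.two_le hqpr
    · have := h40 hqpr
      simp only [Finset.mem_insert, Finset.mem_singleton, not_or] at this
      omega
    · omega
    · omega
  · -- subfield
    have hu := base_facts h5 hodd hr.ne_zero hqu
    have hr3 := odd_prime_three_le hr hro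
    obtain ⟨a, ha, hua⟩ := exists_exp hp hqp h5 hr.ne_zero hqu
    have hne := not_small_exp hp hr3 hqu ha hua
    rw [hk] at hdvd2
    rcases hPX with hX | ⟨hX, -⟩ | ⟨v, hv, hqv, hX, hord⟩ | ⟨v, s, hs, hso, hqv, hX⟩ |
      ⟨h10, hqp', hX, hord⟩ | ⟨hqp', hX, hord, hno⟩ | ⟨hqp', h8', hX, hord⟩
    · rw [hX, hqu] at hdvd2
      exact no_dvd' u r (u ^ r) (by omega) hro (dvd_refl _) (Dvd.dvd.mul_left hdvd2 2)
    · have h1 : u ∣ 2 * x := (Dvd.intro _ rfl).trans hdvd2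
      have h2 : u ∣ 2 * q := by rw [hqu]; exact Dvd.dvd.mul_left (dvd_pow_self u hr.ne_zero) 2
      have h3 : u ∣ 2 := by
        rcases hX with hX | hX
        · have h4 : 2 * q = 2 * x + 2 := by omega
          rw [h4] at h2
          exact (Nat.dvd_add_right h1).1 h2
        · have h4 : 2 * x = 2 * q + 2 := by omega
          rw [h4] at h1
          exact (Nat.dvd_add_right h2).1 h1
      have := Nat.le_of_dvd (by norm_num) h3
      omega
    · rw [hX, ← hqv, hqu] at hdvd2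
      refine no_dvd' u r v (by omega) hro ?_ hdvd2
      rw [← hqu, hqv]
      exact dvd_pow_self v (by norm_num)
    · obtain ⟨b, hb, hvb⟩ := exists_exp hp hqp h5 hs.ne_zero hqv
      rw [hX, hua, hvb] at hdvd2
      have hab : a = b := base_eq p a b r s hp ha hr hs (by rw [← hua, ← hvb, ← hqu, hqv]) hdvd2
      have : u = v := by rw [hua, hvb, hab]
      rw [this] at hk
      omega
    · rcases hqp' with h | h
      · exact hne.1 h
      · exact hne.2 h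
    · exact hne.1 hqp'
    · exact hne.1 hqp'

end Cfsg.Agent.Lib.Helper98.PGLm
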