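import Mathlib

set_option autoImplicit false
set_option linter.unusedSectionVars false

/-!
Hilbert 90 for `GL ι F` over an arbitrary finite index type (port of `Helper43.PA.H90`, which is
stated for `Fin n`).
-/

namespace Cfsg.Agent.Lib.Helper98.PSpF

open Matrix
open scoped MatrixGroups

variable {ι : Type*} [Fintype ι] [DecidableEq ι] {F : Type*} [Field F]

/-- `σ` applied entrywise to an invertible matrix. -/
noncomputable def mapG (σ : F ≃+* F) : GL ι F →* GL ι F :=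
  GeneralLinearGroup.map (σ : F →+* F)

lemma mapG_coe (σ : F ≃+* F) (g : GL ι F) : (mapG σ g).1 = g.1.map σ := rfl

/-- partial norms `g σ(g) ⋯ σ^{k-1}(g)`. -/
noncomputable def nrm (σ : F ≃+* F) (g : GL ι F) : ℕ → GL ι F
  | 0 => 1
  | k + 1 => g * mapG σ (nrm σ g k)

lemma nrm_zero (σ : F ≃+* F) (g : GL ι F) : nrm σ g 0 = 1 := rfl
lemma nrm_succ (σ : F ≃+* F) (g : GL ι F) (k : ℕ) :
    nrm σ g (k + 1) = g * mapG σ (nrm σ g k) := rfl

lemma mapG_mul' (σ τ : F ≃+* F) (g : GL ι F) : mapG (σ * τ) g = mapG σ (mapG τ g) := by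
  apply Units.ext
  ext i j
  rfl

lemma mapG_one' (g : GL ι F) : mapG (1 : F ≃+* F) g = g := by
  apply Units.ext
  ext i j
  rfl

lemma nrm_succ' (σ : F ≃+* F) (g : GL ι F) (k : ℕ) :
    nrm σ g (k + 1) = nrm σ g k * mapG (σ ^ k) g := by
  induction k with
  | zero => simp [nrm_succ, nrm_zero, mapG_one']
  | succ k ih =>
    rw [nrm_succ σ g (k + 1), ih, map_mul, ← mul_assoc, ← nrm_succ, ← mapG_mul', ← pow_succ', ih]

/-- the Poincare series. -/
noncomputable def poin (σ : F ≃+* F) (g : GL ι F) (k : ℕ) (c : ι → F) : ι → F :=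
  ∑ i ∈ Finset.range k, (nrm σ g i).1 *ᵥ (⇑(σ ^ i) ∘ c)

lemma comp_mulVec (σ : F ≃+* F) (M : Matrix ι ι F) (v : ι → F) :
    ⇑σ ∘ (M *ᵥ v) = (M.map σ) *ᵥ (⇑σ ∘ v) := by
  funext i
  exact RingHom.map_mulVec (σ : F →+* F) M v i

lemma comp_sum (σ : F ≃+* F) {κ : Type*} (s : Finset κ) (v : κ → ι → F) :
    ⇑σ ∘ (∑ i ∈ s, v i) = ∑ i ∈ s, ⇑σ ∘ v i := by
  funext j
  simp [Finset.sum_apply]

lemma poin_fix (σ : F ≃+* F) (g : GL ι F) (k : ℕ) (hσ : σ ^ k = 1) (hg : nrm σ g k = 1)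
    (c : ι → F) : g.1 *ᵥ (⇑σ ∘ poin σ g k c) = poin σ g k c := by
  have step : ∀ i, g.1 *ᵥ (⇑σ ∘ ((nrm σ g i).1 *ᵥ (⇑(σ ^ i) ∘ c))) =
      (nrm σ g (i + 1)).1 *ᵥ (⇑(σ ^ (i + 1)) ∘ c) := by
    intro i
    rw [comp_mulVec, mulVec_mulVec, nrm_succ, Units.val_mul, mapG_coe, pow_succ']
    rfl
  unfold poin
  rw [comp_sum, mulVec_sum]
  simp only [step]
  have h1 := Finset.sum_range_succ (fun i => (nrm σ g i).1 *ᵥ (⇑(σ ^ i) ∘ c)) k
  have h2 := Finset.sum_range_succ' (fun i => (nrm σ g i).1 *ᵥ (⇑(σ ^ i) ∘ c)) k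
  rw [h1] at h2
  have h3 : (nrm σ g k).1 *ᵥ (⇑(σ ^ k) ∘ c) = (nrm σ g 0).1 *ᵥ (⇑(σ ^ 0) ∘ c) := by
    rw [hg, hσ, nrm_zero, pow_zero]
  rw [h3] at h2
  exact (add_right_cancel h2).symm

lemma dedekind (σ : F ≃+* F) (k : ℕ) (hk : orderOf σ = k) (a : ℕ → F)
    (h : ∀ t : F, ∑ i ∈ Finset.range k, a i * (σ ^ i) t = 0) : ∀ i < k, a i = 0 := by
  have hli := linearIndependent_monoidHom F F
  have hinj : Function.Injective (fun i : Fin k => (((σ ^ (i : ℕ) : F ≃+* F) : F →+* F) : F →* F)) := by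
    intro i j hij
    have h1 : σ ^ (i : ℕ) = σ ^ (j : ℕ) := by
      ext t
      exact DFunLike.congr_fun hij t
    apply Fin.ext
    exact pow_injOn_Iio_orderOf (by simp [hk]) (by simp [hk]) h1
  have hli2 := hli.comp _ hinj
  rw [Fintype.linearIndependent_iff] at hli2
  intro i hi
  refine hli2 (fun i => a i) ?_ ⟨i, hi⟩
  funext t
  have := h t
  rw [← Fin.sum_univ_eq_sum_range (fun i => a i * (σ ^ i) t)] at this
  simpa [Finset.sum_apply] using this

lemma poin_span (σ : F ≃+* F) (g : GL ι F) (k : ℕ) (hk : orderOf σ = k) (hk0 : 0 < k) :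
    Submodule.span F (Set.range (poin σ g k)) = ⊤ := by
  by_contra hne
  obtain ⟨f, hf0, hf⟩ := Submodule.exists_le_ker_of_lt_top _ (lt_top_iff_ne_top.2 hne)
  apply hf0
  apply LinearMap.pi_ext'
  intro j
  apply LinearMap.ext_ring
  have key : ∀ t : F, ∑ i ∈ Finset.range k, f ((nrm σ g i).1 *ᵥ Pi.single j 1) * (σ ^ i) t = 0 := by
    intro t
    have h1 : f (poin σ g k (Pi.single j t)) = 0 :=
      hf (Submodule.subset_span ⟨_, rfl⟩)
    unfold poin at h1
    rw [map_sum] at h1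
    rw [← h1]
    apply Finset.sum_congr rfl
    intro i _
    have h2 : (⇑(σ ^ i) ∘ (Pi.single j t : ι → F)) = ((σ ^ i) t) • (Pi.single j 1 : ι → F) := by
      funext l
      by_cases hl : l = j
      · subst hl; simp
      · simp [Pi.single_eq_of_ne hl]
    rw [h2, mulVec_smul, map_smul, smul_eq_mul, mul_comm]
  have := dedekind σ k hk _ key 0 hk0
  rw [nrm_zero, Units.val_one, one_mulVec] at this
  simpa using this

/-- Hilbert 90 for `GL ι F`. -/
theorem hilbert90_G (σ : F ≃+* F) (g : GL ι F) (k : ℕ) (hk : orderOf σ = k) (hk0 : 0 < k)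
    (hg : nrm σ g k = 1) : ∃ h : GL ι F, g = h * (mapG σ h)⁻¹ := by
  have hσ : σ ^ k = 1 := hk ▸ pow_orderOf_eq_one σ
  have hspan := poin_span σ g k hk hk0
  obtain ⟨v, hv, -, hli⟩ := Submodule.exists_fun_fin_finrank_span_eq F (Set.range (poin σ g k))
  have hfin : Module.finrank F (Submodule.span F (Set.range (poin σ g k))) = Fintype.card ι := by
    rw [hspan, finrank_top]; simp
  let e : ι → Fin (Module.finrank F (Submodule.span F (Set.range (poin σ g k)))) :=
    fun i => Fin.cast hfin.symm (Fintype.equivFin ι i)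
  have he : Function.Injective e := fun a b h =>
    (Fintype.equivFin ι).injective (Fin.cast_injective _ h)
  let w : ι → ι → F := v ∘ e
  have hwli : LinearIndependent F w := hli.comp _ he
  have hw : ∀ j, g.1 *ᵥ (⇑σ ∘ w j) = w j := by
    intro j
    obtain ⟨c, hc⟩ := hv (e j)
    show g.1 *ᵥ (⇑σ ∘ v (e j)) = v (e j)
    rw [← hc]
    exact poin_fix σ g k hσ hg c
  let P : Matrix ι ι F := (Matrix.of w)ᵀ
  have hP : IsUnit P := by
    rw [← Matrix.linearIndependent_cols_iff_isUnit]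
    exact hwli
  have hgP : g.1 * P.map σ = P := by
    ext i j
    have := congrFun (hw j) i
    simpa [Matrix.mul_apply, Matrix.mulVec, dotProduct, P] using this
  refine ⟨hP.unit, ?_⟩
  rw [eq_mul_inv_iff_mul_eq]
  apply Units.ext
  rw [Units.val_mul, mapG_coe]
  exact hgP

/-- matrices fixed by `σ` come from the fixed field. -/
lemma exists_map_eq {F₀ : Type*} [Field F₀] (j : F₀ →+* F) (σ : F ≃+* F)
    (hj : ∀ x, σ x = x ↔ ∃ y, j y = x) (g : GL ι F) :
    mapG σ g = g ↔ ∃ g₀ : GL ι F₀, Matrix.GeneralLinearGroup.map j g₀ = g := by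
  constructor
  · intro h
    have h1 : ∀ a b, ∃ y, j y = g.1 a b := by
      intro a b
      rw [← hj]
      exact congrArg (fun g : GL ι F => g.1 a b) h
    have h' : mapG σ g⁻¹ = g⁻¹ := by rw [map_inv, h]
    have h2 : ∀ a b, ∃ y, j y = (g⁻¹ : GL ι F).1 a b := by
      intro a b
      rw [← hj]
      exact congrArg (fun g : GL ι F => g.1 a b) h'
    choose M hM using h1
    choose M' hM' using h2
    have e1 : (Matrix.of M).map j = g.1 := by ext a b; exact hM a b
    have e2 : (Matrix.of M').map j = (g⁻¹ : GL ι F).1 := by ext a b; exact hM' a b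
    have hinj : Function.Injective (fun A : Matrix ι ι F₀ => A.map j) :=
      Matrix.map_injective j.injective
    refine ⟨⟨Matrix.of M, Matrix.of M', ?_, ?_⟩, Units.ext e1⟩
    · apply hinj
      show (Matrix.of M * Matrix.of M').map j = (1 : Matrix ι ι F₀).map j
      rw [Matrix.map_mul, e1, e2, ← Units.val_mul, mul_inv_cancel]
      simp
    · apply hinj
      show (Matrix.of M' * Matrix.of M).map j = (1 : Matrix ι ι F₀).map j
      rw [Matrix.map_mul, e1, e2, ← Units.val_mul, inv_mul_cancel]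
      simp
  · rintro ⟨g₀, rfl⟩
    apply Units.ext
    ext a b
    exact (hj _).2 ⟨g₀.1 a b, rfl⟩

end Cfsg.Agent.Lib.Helper98.PSpF
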