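import Mathlib
import Cfsg.Agent.Lib.Helper98.PSpF0
import Cfsg.Agent.Lib.Helper14.PSpAutGrp
import Cfsg.Agent.Lib.Helper43.PA.FieldCent
import Cfsg.Agent.Lib.Helper5.SpEmbed

set_option autoImplicit false
set_option linter.unusedSectionVars false
set_option linter.unusedVariables false

/-!
Conformal symplectic groups: scalars, the matrix characterisation, the multiplier, the kernel of
`GSp → Aut(PSp)`, injectivity of `Aut(F) → Aut(PSp)`.
-/

namespace Cfsg.Agent.Lib.Helper98.PSpF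

open Matrix Cfsg.Agent.Lib.Helper13 Cfsg.Agent.Lib.Helper5 Cfsg.Agent.Lib.Helper94
open Cfsg.Agent.Lib.Helper14.PSpAut
open Cfsg.Agent.Lib.Helper43.PA (uM uM_coe nU nU_zero nU_succ)
open scoped MatrixGroups

section Scalars

variable {ι : Type*} [Fintype ι] [DecidableEq ι] {F : Type*} [Field F]

/-- scalar matrices. -/
noncomputable def scG : Fˣ →* GL ι F := Units.map (Matrix.scalar ι).toMonoidHom

lemma scG_coe (u : Fˣ) : (scG u : GL ι F).1 = Matrix.scalar ι (u : F) := rfl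

lemma scG_comm (u : Fˣ) (g : GL ι F) : scG u * g = g * scG u := by
  apply Units.ext
  rw [Units.val_mul, Units.val_mul, scG_coe]
  exact (Matrix.scalar_commute (u : F) (fun r => mul_comm _ _) g.1)

lemma scG_mulVec (u : Fˣ) (x : ι → F) : (scG u : GL ι F).1 *ᵥ x = (u : F) • x := by
  rw [scG_coe, Matrix.scalar_apply, ← Matrix.smul_one_eq_diagonal, smul_mulVec, one_mulVec]

lemma mapG_scG (σ : F ≃+* F) (u : Fˣ) : mapG σ (scG u : GL ι F) = scG (uM σ u) := by
  apply Units.ext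
  rw [mapG_coe, scG_coe, scG_coe, uM_coe]
  ext i j
  by_cases h : i = j
  · subst h; simp
  · simp [Matrix.scalar_apply, Matrix.diagonal_apply_ne _ h]

lemma nrm_scG_mul (σ : F ≃+* F) (u : Fˣ) (g : GL ι F) (k : ℕ) :
    nrm σ (scG u * g) k = scG (nU σ u k) * nrm σ g k := by
  induction k with
  | zero => simp [nrm_zero, nU_zero]
  | succ k ih =>
    rw [nrm_succ, ih, nrm_succ, nU_succ, map_mul, map_mul, mapG_scG, mul_assoc, mul_assoc,
      ← mul_assoc g, ← scG_comm _ g]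
    simp only [mul_assoc]

lemma scG_injective [hne : Nonempty ι] : Function.Injective (scG : Fˣ →* GL ι F) := by
  intro u v h
  obtain ⟨i⟩ := hne
  have h1 := congrArg (fun g : GL ι F => g.1 i i) h
  simp only [scG_coe, Matrix.scalar_apply, Matrix.diagonal_apply_eq] at h1
  exact Units.ext h1

lemma mapG_pow_of_scalar (σ : F ≃+* F) {g : GL ι F} {u : Fˣ} (h : mapG σ g = scG u * g)
    (j : ℕ) : mapG (σ ^ j) g = scG (nU σ u j) * g := by
  induction j with
  | zero => simp [nU_zero, mapG_one']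
  | succ j ih =>
    rw [pow_succ', mapG_mul', ih, map_mul, mapG_scG, h, nU_succ, map_mul, ← mul_assoc,
      ← map_mul, ← map_mul, mul_comm]

end Scalars

variable {F : Type*} [Field F] {m : ℕ}

local notation "V" => (Fin m ⊕ Fin m → F)
local notation "Sp" => Matrix.symplecticGroup (Fin m) F
local notation "B" => Cfsg.sympForm m F
local notation "GSp" => Cfsg.GSp m F
local notation "JJ" => Matrix.J (Fin m) F

lemma mapGL_eq_mapG (σ : F ≃+* F) : (mapGL σ : GL (Fin m ⊕ Fin m) F →* _) = mapG σ := rfl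

/-- the matrix characterisation of `GSp`. -/
lemma mem_GSp_iff (g : GL (Fin m ⊕ Fin m) F) :
    g ∈ GSp ↔ ∃ c : Fˣ, g.1ᵀ * JJ * g.1 = (c : F) • JJ := by
  constructor
  · rintro ⟨c, hc⟩
    refine ⟨c, ?_⟩
    ext i j
    have := hc (Pi.single i 1) (Pi.single j 1)
    rw [sympForm_mulVec_mulVec, sympForm_def] at this
    simpa using this
  · rintro ⟨c, hc⟩
    refine ⟨c, fun u v => ?_⟩
    rw [sympForm_mulVec_mulVec, hc, sympForm_def, smul_mulVec, dotProduct_smul, smul_eq_mul]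

lemma J_map {K : Type*} [Field K] (j : F →+* K) : (JJ).map j = Matrix.J (Fin m) K := by
  ext a b
  rcases a with a | a <;> rcases b with b | b <;>
    simp [Matrix.J, Matrix.fromBlocks, Matrix.one_apply, apply_ite j]

/-- a hyperbolic pair. -/
lemma exists_pair (hm : 1 ≤ m) : ∃ e f : V, B e f = 1 := by
  have hne : (Pi.single (Sum.inl ⟨0, by omega⟩) 1 : V) ≠ 0 := by
    intro h
    have := congrFun h (Sum.inl ⟨0, by omega⟩)
    simp at this
  exact ⟨_, exists_partner hne⟩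

lemma scG_mem_GSp (u : Fˣ) : (scG u : GL (Fin m ⊕ Fin m) F) ∈ GSp := by
  refine ⟨u * u, fun x y => ?_⟩
  rw [scG_mulVec, scG_mulVec, sympForm_smul_left, sympForm_smul_right, Units.val_mul, mul_assoc]

/-- scalars, in `GSp`. -/
noncomputable def scS : Fˣ →* ↥GSp where
  toFun u := ⟨scG u, scG_mem_GSp u⟩
  map_one' := Subtype.ext (map_one _)
  map_mul' a b := Subtype.ext (map_mul _ _ _)

lemma scS_coe (u : Fˣ) : (scS u : ↥GSp).1 = scG u := rfl

/-- the multiplier. -/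
noncomputable def mu0 (g : ↥GSp) : Fˣ := Classical.choose g.2

lemma mu0_spec (g : ↥GSp) (u v : V) : B (g.1.1 *ᵥ u) (g.1.1 *ᵥ v) = (mu0 g : F) * B u v :=
  Classical.choose_spec g.2 u v

lemma mu0_unique (hm : 1 ≤ m) (g : ↥GSp) (c : Fˣ)
    (h : ∀ u v : V, B (g.1.1 *ᵥ u) (g.1.1 *ᵥ v) = (c : F) * B u v) : mu0 g = c := by
  obtain ⟨e, f, hef⟩ := exists_pair (F := F) hm
  have h1 := mu0_spec g e f
  rw [h e f, hef, mul_one, mul_one] at h1
  exact (Units.ext h1).symm

/-- the multiplier as a homomorphism. -/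
noncomputable def mu (hm : 1 ≤ m) : ↥GSp →* Fˣ where
  toFun := mu0
  map_one' := mu0_unique hm 1 1 (fun u v => by simp)
  map_mul' a b := mu0_unique hm (a * b) (mu0 a * mu0 b) (fun u v => by
    show B ((a.1 * b.1 : GL _ F).1 *ᵥ u) ((a.1 * b.1 : GL _ F).1 *ᵥ v) = _
    rw [Units.val_mul, ← Matrix.mulVec_mulVec, ← Matrix.mulVec_mulVec, mu0_spec, mu0_spec,
      Units.val_mul, mul_assoc])

lemma mu_spec (hm : 1 ≤ m) (g : ↥GSp) (u v : V) :
    B (g.1.1 *ᵥ u) (g.1.1 *ᵥ v) = (mu hm g : F) * B u v := mu0_spec g u v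

lemma mu_unique (hm : 1 ≤ m) (g : ↥GSp) (c : Fˣ)
    (h : ∀ u v : V, B (g.1.1 *ᵥ u) (g.1.1 *ᵥ v) = (c : F) * B u v) : mu hm g = c :=
  mu0_unique hm g c h

lemma mu_scS (hm : 1 ≤ m) (u : Fˣ) : mu hm (scS u : ↥GSp) = u ^ 2 := by
  apply mu_unique
  intro x y
  rw [scS_coe, scG_mulVec, scG_mulVec, sympForm_smul_left, sympForm_smul_right, sq, Units.val_mul,
    mul_assoc]

lemma mu_mapGSp (hm : 1 ≤ m) (σ : F ≃+* F) (g : ↥GSp) :
    mu hm (mapGSp σ g) = uM σ (mu hm g) := by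
  apply mu_unique
  intro u v
  have h1 := mu_spec hm g (thV σ.symm u) (thV σ.symm v)
  have h2 := congrArg σ h1
  rw [← sympForm_thV, ← map_mulVec_thV, ← map_mulVec_thV, thV_symm, thV_symm, map_mul,
    ← sympForm_thV, thV_symm, thV_symm] at h2
  exact h2

/-- `Sp → GSp`. -/
noncomputable def toGSp : Sp →* ↥GSp where
  toFun s := ⟨toGL s, toGL_mem s⟩
  map_one' := Subtype.ext (map_one _)
  map_mul' a b := Subtype.ext (map_mul _ _ _)

lemma toGSp_coe (s : Sp) : (toGSp s).1.1 = s.1 := rfl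

lemma ker_mu (hm : 1 ≤ m) : (mu (F := F) hm).ker = (toGSp : Sp →* ↥GSp).range := by
  ext g
  rw [MonoidHom.mem_ker]
  constructor
  · intro h
    have hs : g.1.1 ∈ Matrix.symplecticGroup (Fin m) F := by
      rw [mem_symplecticGroup_iff_preserves]
      intro u v
      rw [mu_spec hm, h, Units.val_one, one_mul]
    exact ⟨⟨g.1.1, hs⟩, Subtype.ext (Units.ext rfl)⟩
  · rintro ⟨s, rfl⟩
    apply mu_unique
    intro u v
    rw [toGSp_coe, Units.val_one, one_mul, Cfsg.Agent.Lib.Helper13.sp_preserves]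

lemma conj_mk_eq_cG (s : Sp) : MulAut.conj (mkP s) = cG (toGSp s) := by
  apply mulAut_psp_ext
  intro t
  rw [cG_mk, MulAut.conj_apply, ← map_inv, ← map_mul, ← map_mul]
  congr 1
  apply Subtype.ext
  rw [conjSp_coe]
  show s.1 * t.1 * (s⁻¹).1 = s.1 * t.1 * ((toGL s)⁻¹ : GL _ F).1
  congr 1
  rw [← map_inv]
  rfl

lemma inn_eq_map (hm : 1 ≤ m) : Cfsg.Inn (Cfsg.PSp m F) = (mu (F := F) hm).ker.map cG := by
  rw [ker_mu]
  ext y
  constructor
  · rintro ⟨t, rfl⟩
    obtain ⟨s, rfl⟩ := mkP_surj t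
    exact ⟨toGSp s, ⟨s, rfl⟩, (conj_mk_eq_cG s).symm⟩
  · rintro ⟨_, ⟨s, rfl⟩, rfl⟩
    exact ⟨mkP s, conj_mk_eq_cG s⟩

end Cfsg.Agent.Lib.Helper98.PSpF
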