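import Mathlib
import Cfsg.Agent.Lib.Helper98.PSpF1

set_option autoImplicit false
set_option linter.unusedSectionVars false
set_option linter.unusedVariables false

/-!
Kernel of `GSp → Aut(PSp)`, injectivity of `Aut(F) → Aut(PSp)`, dilations, formal identities.
-/

namespace Cfsg.Agent.Lib.Helper98.PSpF

open Matrix Cfsg.Agent.Lib.Helper13 Cfsg.Agent.Lib.Helper5 Cfsg.Agent.Lib.Helper94
open Cfsg.Agent.Lib.Helper14.PSpAut
open Cfsg.Agent.Lib.Helper43.PA (uM uM_coe nU nU_zero nU_succ)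
open scoped MatrixGroups

variable {F : Type*} [Field F] {m : ℕ}

local notation "V" => (Fin m ⊕ Fin m → F)
local notation "Sp" => Matrix.symplecticGroup (Fin m) F
local notation "B" => Cfsg.sympForm m F
local notation "GSp" => Cfsg.GSp m F
local notation "JJ" => Matrix.J (Fin m) F

lemma conjSp_tv (hm : 1 ≤ m) (g : ↥GSp) (v : V) (c : F) :
    conjSp g (tv v c) = tv (g.1.1 *ᵥ v) (c * (((mu hm g)⁻¹ : Fˣ) : F)) := by
  apply sp_ext
  intro x
  rw [conjSp_coe, ← Matrix.mulVec_mulVec, ← Matrix.mulVec_mulVec, tv_mulVec, tv_mulVec,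
    Matrix.mulVec_add, Matrix.mulVec_smul, gl_inv_mulVec]
  congr 2
  have h1 := mu_spec hm g ((g.1⁻¹ : GL _ F).1 *ᵥ x) v
  rw [gl_inv_mulVec] at h1
  rw [h1, Units.val_inv_eq_inv_val]
  have h0 : ((mu hm g : Fˣ) : F) ≠ 0 := (mu hm g).ne_zero
  field_simp

lemma cG_scS (u : Fˣ) : cG (scS u : ↥GSp) = 1 := by
  apply mulAut_psp_ext
  intro s
  have h1 : conjSp (scS u : ↥GSp) s = s := by
    apply sp_ext
    intro x
    rw [conjSp_coe, ← Matrix.mulVec_mulVec, ← Matrix.mulVec_mulVec, scS_coe, scG_mulVec, ← map_inv,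
      scG_mulVec, Matrix.mulVec_smul, smul_smul, ← Units.val_mul, mul_inv_cancel, Units.val_one,
      one_smul]
  rw [cG_mk, h1]
  rfl

lemma cG_scS_mul (u : Fˣ) (g : ↥GSp) : cG (scS u * g) = cG g := by
  rw [map_mul, cG_scS, one_mul]

/-- the kernel of `GSp → Aut(PSp)` consists of scalars. -/
lemma exists_scS_of_cG_eq_one (hm : 2 ≤ m) {g : ↥GSp} (h : cG g = 1) : ∃ u : Fˣ, g = scS u := by
  have hm1 : 1 ≤ m := by omega
  have key : ∀ v : V, ∃ c : F, g.1.1 *ᵥ v = c • v := by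
    intro v
    by_cases hv : v = 0
    · exact ⟨0, by rw [hv]; simp⟩
    have h1 : cG g (mkP (tv v 1)) = mkP (tv v 1) := by rw [h]; rfl
    rw [cG_mk, conjSp_tv hm1] at h1
    have h2 := tv_eq_of_mkP_eq hm h1
    have hgv : g.1.1 *ᵥ v ≠ 0 := by
      intro h0
      apply hv
      have := gl_inv_mulVec' g.1 v
      rw [h0, Matrix.mulVec_zero] at this
      exact this.symm
    exact span_of_tv_eq hgv (by rw [one_mul]; exact Units.ne_zero _) h2
  obtain ⟨a, ha⟩ := matrix_eq_scalar_of_forall_mulVec g.1.1 key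
  have ha0 : a ≠ 0 := by
    rintro rfl
    have hu : IsUnit g.1.1 := g.1.isUnit
    rw [ha, map_zero] at hu
    have : Nonempty (Fin m ⊕ Fin m) := ⟨Sum.inl ⟨0, by omega⟩⟩
    exact not_isUnit_zero hu
  exact ⟨Units.mk0 a ha0, Subtype.ext (Units.ext ha)⟩

lemma exists_scS_of_cG_eq (hm : 2 ≤ m) {g h : ↥GSp} (e : cG g = cG h) :
    ∃ u : Fˣ, g = scS u * h := by
  obtain ⟨u, hu⟩ := exists_scS_of_cG_eq_one hm (g := g * h⁻¹)
    (by rw [map_mul, map_inv, e, mul_inv_cancel])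
  exact ⟨u, by rw [← hu, inv_mul_cancel_right]⟩

lemma fieldSp_tv (σ : F ≃+* F) (v : V) (c : F) :
    fieldSp σ (tv v c) = tv (thV σ v) (σ c) := by
  apply sp_ext
  intro x
  rw [fieldSp_coe, ← thV_symm σ x, map_mulVec_thV, tv_mulVec, tv_mulVec, sympForm_thV]
  ext i
  simp [thV]

lemma fA_injective (hm : 2 ≤ m) :
    Function.Injective (fA : (F ≃+* F) →* MulAut (Cfsg.PSp m F)) := by
  rw [injective_iff_map_eq_one]
  intro σ h
  ext a
  set e : V := Pi.single (Sum.inl ⟨0, by omega⟩) 1 with he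
  have he0 : e ≠ 0 := by
    intro h0
    have := congrFun h0 (Sum.inl ⟨0, by omega⟩)
    simp [he] at this
  have hσe : thV σ e = e := by
    ext i
    by_cases hi : i = Sum.inl ⟨0, by omega⟩
    · subst hi; simp [thV, he]
    · simp [thV, he, Pi.single_eq_of_ne hi]
  have h1 : fA σ (mkP (tv e a)) = mkP (tv e a) := by rw [h]; rfl
  rw [fA_mk, fieldSp_tv, hσe] at h1
  exact tv_inj he0 (tv_eq_of_mkP_eq hm h1)

/-! ### norms in `GSp` -/

/-- partial norms in `GSp`. -/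
noncomputable def nrmS (σ : F ≃+* F) (g : ↥GSp) : ℕ → ↥GSp
  | 0 => 1
  | k + 1 => g * mapGSp σ (nrmS σ g k)

lemma nrmS_coe (σ : F ≃+* F) (g : ↥GSp) (k : ℕ) : (nrmS σ g k).1 = nrm σ g.1 k := by
  induction k with
  | zero => rfl
  | succ k ih =>
    show g.1 * mapG σ (nrmS σ g k).1 = _
    rw [ih, nrm_succ]

lemma pow_cG_fA (σ : F ≃+* F) (g : ↥GSp) (k : ℕ) :
    (cG g * fA σ) ^ k = cG (nrmS σ g k) * fA (σ ^ k) := by
  induction k with
  | zero => simp [nrmS]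
  | succ k ih =>
    rw [pow_succ', ih]
    show _ = cG (g * mapGSp σ (nrmS σ g k)) * _
    rw [map_mul, pow_succ', map_mul, mul_assoc, ← mul_assoc (fA σ), fA_mul_cG]
    simp only [mul_assoc]

lemma conj_fA (σ : F ≃+* F) (h : ↥GSp) :
    cG h * fA σ * (cG h)⁻¹ = cG (h * (mapGSp σ h)⁻¹) * fA σ := by
  rw [map_mul, map_inv, mul_assoc, mul_assoc, mul_right_inj, eq_inv_mul_iff_mul_eq, ← mul_assoc,
    ← fA_mul_cG, mul_inv_cancel_right]

lemma mu_nrmS (hm : 1 ≤ m) (σ : F ≃+* F) (g : ↥GSp) (k : ℕ) :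
    mu hm (nrmS σ g k) = nU σ (mu hm g) k := by
  induction k with
  | zero => exact map_one _
  | succ k ih =>
    show mu hm (g * mapGSp σ (nrmS σ g k)) = _
    rw [map_mul, mu_mapGSp, ih, nU_succ]

/-! ### dilations -/

/-- `diag(c,…,c,1,…,1)`. -/
noncomputable def dlG : Fˣ →* GL (Fin m ⊕ Fin m) F :=
  Units.map ((Matrix.diagonalRingHom (Fin m ⊕ Fin m) F).toMonoidHom.comp
    { toFun := fun c => Sum.elim (fun _ => c) (fun _ => 1)
      map_one' := by ext i; rcases i with i | i <;> rfl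
      map_mul' := fun a b => by ext i; rcases i with i | i <;> simp })

lemma dlG_coe (c : Fˣ) :
    (dlG c : GL (Fin m ⊕ Fin m) F).1 = Matrix.diagonal (Sum.elim (fun _ => (c : F)) (fun _ => 1)) :=
  rfl

lemma dlG_form (c : Fˣ) (u v : V) :
    B ((dlG c : GL (Fin m ⊕ Fin m) F).1 *ᵥ u) ((dlG c : GL (Fin m ⊕ Fin m) F).1 *ᵥ v)
      = (c : F) * B u v := by
  rw [dlG_coe, sympForm_eq_sum, sympForm_eq_sum, Finset.mul_sum]
  apply Finset.sum_congr rfl
  intro i _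
  simp only [Matrix.mulVec_diagonal, Sum.elim_inl, Sum.elim_inr]
  ring

/-- dilations in `GSp`. -/
noncomputable def dlS : Fˣ →* ↥GSp where
  toFun c := ⟨dlG c, c, dlG_form c⟩
  map_one' := Subtype.ext (map_one _)
  map_mul' a b := Subtype.ext (map_mul _ _ _)

lemma mu_dlS (hm : 1 ≤ m) (c : Fˣ) : mu hm (dlS c : ↥GSp) = c :=
  mu_unique hm _ c (dlG_form c)

lemma mu_surjective (hm : 1 ≤ m) : Function.Surjective (mu (F := F) hm) :=
  fun c => ⟨dlS c, mu_dlS hm c⟩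

lemma mapGSp_dlS (σ : F ≃+* F) (c : Fˣ) : mapGSp σ (dlS c : ↥GSp) = dlS (uM σ c) := by
  apply Subtype.ext
  apply Units.ext
  show (dlG c : GL (Fin m ⊕ Fin m) F).1.map σ = (dlG (uM σ c) : GL (Fin m ⊕ Fin m) F).1
  rw [dlG_coe, dlG_coe, uM_coe]
  ext i j
  by_cases h : i = j
  · subst h
    rcases i with i | i <;> simp
  · simp [Matrix.diagonal_apply_ne _ h]

lemma mapGSp_scS (σ : F ≃+* F) (u : Fˣ) : mapGSp σ (scS u : ↥GSp) = scS (uM σ u) :=
  Subtype.ext (mapG_scG σ u)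

lemma scS_injective (hm : 1 ≤ m) : Function.Injective (scS : Fˣ →* ↥GSp) := by
  intro u v h
  have : Nonempty (Fin m ⊕ Fin m) := ⟨Sum.inl ⟨0, by omega⟩⟩
  exact scG_injective (congrArg Subtype.val h)

lemma scS_comm (u : Fˣ) (g : ↥GSp) : scS u * g = g * scS u := Subtype.ext (scG_comm u g.1)

end Cfsg.Agent.Lib.Helper98.PSpF
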