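import Mathlib
import Cfsg.Agent.Lib.Helper98.PSpF2

set_option autoImplicit false
set_option linter.unusedSectionVars false
set_option linter.unusedVariables false

/-!
Lang's theorem for `GSp_{2m}` and a field automorphism.
-/

namespace Cfsg.Agent.Lib.Helper98.PSpF

open Matrix Cfsg.Agent.Lib.Helper13 Cfsg.Agent.Lib.Helper5 Cfsg.Agent.Lib.Helper94
open Cfsg.Agent.Lib.Helper14.PSpAut
open Cfsg.Agent.Lib.Helper43.PA (uM uM_coe nU nU_zero nU_succ hilbert90_units fixK mem_fixK)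
open scoped MatrixGroups

lemma dot_mulVec {ι K : Type*} [Fintype ι] [CommRing K] (A M : Matrix ι ι K) (u v : ι → K) :
    (A *ᵥ u) ⬝ᵥ (M *ᵥ (A *ᵥ v)) = u ⬝ᵥ ((Aᵀ * M * A) *ᵥ v) := by
  rw [dotProduct_comm, dotProduct_mulVec, ← mulVec_transpose, dotProduct_comm,
    mulVec_mulVec, mulVec_mulVec, Matrix.mul_assoc]

variable {F : Type*} [Field F] {m : ℕ}

local notation "V" => (Fin m ⊕ Fin m → F)
local notation "Sp" => Matrix.symplecticGroup (Fin m) F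
local notation "B" => Cfsg.sympForm m F
local notation "GSp" => Cfsg.GSp m F
local notation "JJ" => Matrix.J (Fin m) F

lemma mu_matrix (hm : 1 ≤ m) (g : ↥GSp) :
    g.1.1ᵀ * JJ * g.1.1 = ((mu hm g : Fˣ) : F) • JJ := by
  ext i j
  have := mu_spec hm g (Pi.single i 1) (Pi.single j 1)
  rw [sympForm_mulVec_mulVec, sympForm_def] at this
  simpa using this

lemma fixK_iff (σ : F ≃+* F) (x : F) : σ x = x ↔ ∃ y, (fixK σ).subtype y = x := by
  constructor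
  · intro h
    exact ⟨⟨x, mem_fixK.2 h⟩, rfl⟩
  · rintro ⟨y, rfl⟩
    exact mem_fixK.1 y.2

/-- a nondegenerate alternating matrix is congruent to `J`. -/
lemma exists_congr_J {K : Type*} [Field K] (M₀ : Matrix (Fin m ⊕ Fin m) (Fin m ⊕ Fin m) K)
    (hdet : M₀.det ≠ 0) (halt : ∀ u, u ⬝ᵥ (M₀ *ᵥ u) = 0) :
    ∃ k : GL (Fin m ⊕ Fin m) K, k.1ᵀ * M₀ * k.1 = Matrix.J (Fin m) K := by
  have hB : (Matrix.toBilin' M₀).Nondegenerate :=
    Matrix.Nondegenerate.toBilin' (Matrix.nondegenerate_of_det_ne_zero hdet)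
  have hA : (Matrix.toBilin' M₀).IsAlt := by
    intro u
    rw [Matrix.toBilin'_apply']
    exact halt u
  have hfr : Module.finrank K (Fin m ⊕ Fin m → K) = 2 * m := by
    rw [Module.finrank_fintype_fun_eq_card, Fintype.card_sum, Fintype.card_fin]; ring
  obtain ⟨b, hb⟩ := exists_symplectic_basis (Matrix.toBilin' M₀) hB hA m hfr
  let k : GL (Fin m ⊕ Fin m) K :=
    ⟨(Pi.basisFun K (Fin m ⊕ Fin m)).toMatrix ⇑b, b.toMatrix ⇑(Pi.basisFun K (Fin m ⊕ Fin m)),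
      Module.Basis.toMatrix_mul_toMatrix_flip _ _, Module.Basis.toMatrix_mul_toMatrix_flip _ _⟩
  have hk : ∀ v, k.1 *ᵥ (b.equivFun v) = v := by
    intro v
    have h1 := Module.Basis.toMatrix_mulVec_repr b (Pi.basisFun K (Fin m ⊕ Fin m)) v
    have h2 : (⇑((Pi.basisFun K (Fin m ⊕ Fin m)).repr v) : Fin m ⊕ Fin m → K) = v := by
      funext i
      simp
    rw [h2] at h1
    exact h1
  have hform : ∀ x y, (k.1 *ᵥ x) ⬝ᵥ (M₀ *ᵥ (k.1 *ᵥ y)) = Cfsg.sympForm m K x y := by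
    intro x y
    have h1 := hb (b.equivFun.symm x) (b.equivFun.symm y)
    rw [LinearEquiv.apply_symm_apply, LinearEquiv.apply_symm_apply, Matrix.toBilin'_apply'] at h1
    have hx := hk (b.equivFun.symm x)
    have hy := hk (b.equivFun.symm y)
    rw [LinearEquiv.apply_symm_apply] at hx hy
    rw [hx, hy, h1]
  refine ⟨k, ?_⟩
  ext i j
  have := hform (Pi.single i 1) (Pi.single j 1)
  rw [dot_mulVec, sympForm_def] at this
  simpa using this

/-- Lang's theorem for `GSp`. -/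
theorem lang_GSp (hm : 1 ≤ m) (σ : F ≃+* F) (k : ℕ) (hk : orderOf σ = k) (hk0 : 0 < k) (g : ↥GSp)
    (hN : nrmS σ g k = 1) : ∃ h : ↥GSp, g = h * (mapGSp σ h)⁻¹ := by
  obtain ⟨h₀, hh₀⟩ := hilbert90_G σ g.1 k hk hk0 (by rw [← nrmS_coe, hN]; rfl)
  have hσh : mapG σ h₀ = g.1⁻¹ * h₀ := by rw [hh₀]; group
  have hNμ : nU σ (mu hm g) k = 1 := by rw [← mu_nrmS, hN, map_one]
  obtain ⟨c, hc⟩ := hilbert90_units σ (mu hm g) k hk hk0 hNμ
  have hmul : ∀ A C : Matrix (Fin m ⊕ Fin m) (Fin m ⊕ Fin m) F,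
      (A * C).map σ = A.map σ * C.map σ := fun A C => Matrix.map_mul (f := (σ : F →+* F))
  have hJ : (JJ).map σ = JJ := J_map (σ : F →+* F)
  obtain ⟨M, hM⟩ : ∃ M : Matrix (Fin m ⊕ Fin m) (Fin m ⊕ Fin m) F, M = h₀.1ᵀ * JJ * h₀.1 :=
    ⟨_, rfl⟩
  have hσM : M.map σ = (((mu hm g)⁻¹ : Fˣ) : F) • M := by
    have e1 : M.map σ = (mapG σ h₀).1ᵀ * JJ * (mapG σ h₀).1 := by
      rw [hM, mapG_coe, hmul, hmul, hJ, Matrix.transpose_map]
    have e2 := mu_matrix hm g⁻¹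
    rw [map_inv] at e2
    have e3 : ((g⁻¹ : ↥GSp).1 : GL _ F) = g.1⁻¹ := rfl
    rw [e3] at e2
    rw [e1, hσh, Units.val_mul, Matrix.transpose_mul, hM]
    calc h₀.1ᵀ * (g.1⁻¹ : GL _ F).1ᵀ * JJ * ((g.1⁻¹ : GL _ F).1 * h₀.1)
        = h₀.1ᵀ * ((g.1⁻¹ : GL _ F).1ᵀ * JJ * (g.1⁻¹ : GL _ F).1) * h₀.1 := by
          simp only [Matrix.mul_assoc]
      _ = _ := by
          rw [e2, Matrix.mul_smul, Matrix.smul_mul]
  have hμ : ((mu hm g)⁻¹ : Fˣ) = uM σ c * c⁻¹ := by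
    rw [hc, _root_.mul_inv_rev, inv_inv]
  obtain ⟨M', hM'⟩ : ∃ M' : Matrix (Fin m ⊕ Fin m) (Fin m ⊕ Fin m) F,
      M' = ((c⁻¹ : Fˣ) : F) • M := ⟨_, rfl⟩
  have hMM' : M = (c : F) • M' := by
    rw [hM', smul_smul, ← Units.val_mul, mul_inv_cancel, Units.val_one, one_smul]
  have hσM' : ∀ i j, σ (M' i j) = M' i j := by
    intro i j
    have hij : σ (M i j) = (((mu hm g)⁻¹ : Fˣ) : F) * M i j := congrFun (congrFun hσM i) j
    rw [hM', Matrix.smul_apply, smul_eq_mul, map_mul, hij, hμ, Units.val_mul, uM_coe,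
      Units.val_inv_eq_inv_val, map_inv₀]
    have h0 : σ (c : F) ≠ 0 := by simp
    field_simp
  let M₀ : Matrix (Fin m ⊕ Fin m) (Fin m ⊕ Fin m) (fixK σ) :=
    Matrix.of fun i j => ⟨M' i j, mem_fixK.2 (hσM' i j)⟩
  have hM₀ : M₀.map (fixK σ).subtype = M' := by ext i j; rfl
  have hdet : M₀.det ≠ 0 := by
    intro h0
    have h1 : M'.det = 0 := by
      rw [← hM₀]
      have h2 := RingHom.map_det (fixK σ).subtype M₀
      rw [h0, map_zero] at h2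
      exact h2.symm
    rw [hM', Matrix.det_smul, hM, Matrix.det_mul, Matrix.det_mul, Matrix.det_transpose] at h1
    have hh : h₀.1.det ≠ 0 := ((Matrix.isUnit_iff_isUnit_det _).1 h₀.isUnit).ne_zero
    have hJd : (JJ).det ≠ 0 := (Matrix.isUnit_det_J (Fin m) F).ne_zero
    have hc0 : (((c⁻¹ : Fˣ) : F)) ^ Fintype.card (Fin m ⊕ Fin m) ≠ 0 :=
      pow_ne_zero _ (Units.ne_zero _)
    exact (mul_ne_zero hc0 (mul_ne_zero (mul_ne_zero hh hJd) hh)) h1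
  have halt : ∀ u, u ⬝ᵥ (M₀ *ᵥ u) = 0 := by
    intro u
    apply (fixK σ).subtype.injective
    rw [map_zero, RingHom.map_dotProduct]
    have e1 : (⇑(fixK σ).subtype ∘ (M₀ *ᵥ u)) = M' *ᵥ (⇑(fixK σ).subtype ∘ u) := by
      funext i
      rw [← hM₀]
      exact RingHom.map_mulVec (fixK σ).subtype M₀ u i
    rw [e1, hM', smul_mulVec, dotProduct_smul, hM, ← sympForm_mulVec_mulVec, sympForm_self,
      smul_zero]
  obtain ⟨k₀, hk₀⟩ := exists_congr_J M₀ hdet halt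
  obtain ⟨kk, hkk⟩ : ∃ kk : GL (Fin m ⊕ Fin m) F,
      kk = Matrix.GeneralLinearGroup.map (fixK σ).subtype k₀ := ⟨_, rfl⟩
  have hkk1 : kk.1 = k₀.1.map (fixK σ).subtype := by rw [hkk]; rfl
  have hσk : mapG σ kk = kk := (exists_map_eq (fixK σ).subtype σ (fixK_iff σ) kk).2 ⟨k₀, hkk.symm⟩
  have hkJ : kk.1ᵀ * M' * kk.1 = JJ := by
    have := congrArg (fun A => A.map (fixK σ).subtype) hk₀
    simp only [Matrix.map_mul, Matrix.transpose_map, hM₀] at this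
    rw [hkk1, this]
    exact J_map (fixK σ).subtype
  have hmem : h₀ * kk ∈ GSp := by
    rw [mem_GSp_iff]
    refine ⟨c, ?_⟩
    rw [Units.val_mul, Matrix.transpose_mul]
    calc kk.1ᵀ * h₀.1ᵀ * JJ * (h₀.1 * kk.1) = kk.1ᵀ * (h₀.1ᵀ * JJ * h₀.1) * kk.1 := by
          simp only [Matrix.mul_assoc]
      _ = _ := by rw [← hM, hMM', Matrix.mul_smul, Matrix.smul_mul, hkJ]
  refine ⟨⟨h₀ * kk, hmem⟩, ?_⟩
  apply Subtype.ext
  show g.1 = h₀ * kk * (mapG σ (h₀ * kk))⁻¹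
  rw [map_mul, hσk, hh₀]
  group

end Cfsg.Agent.Lib.Helper98.PSpF
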