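import Mathlib
import Cfsg.Agent.Lib.Helper98.PSpF3

set_option autoImplicit false
set_option linter.unusedSectionVars false
set_option linter.unusedVariables false

/-!
The coset `Inndiag(PSp) · φ` of a field automorphism (S2713).
-/

namespace Cfsg.Agent.Lib.Helper98.PSpF

open Matrix Cfsg.Agent.Lib.Helper13 Cfsg.Agent.Lib.Helper5 Cfsg.Agent.Lib.Helper94
open Cfsg.Agent.Lib.Helper14.PSpAut
open Cfsg.Agent.Lib.Helper43.PA (uM uM_coe nU nU_zero nU_succ hilbert90_units fixK mem_fixK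
  exists_nU_eq conj_transport orderOf_conj')
open scoped MatrixGroups

variable {F : Type*} [Field F] {m : ℕ}

local notation "V" => (Fin m ⊕ Fin m → F)
local notation "Sp" => Matrix.symplecticGroup (Fin m) F
local notation "B" => Cfsg.sympForm m F
local notation "GSp" => Cfsg.GSp m F
local notation "JJ" => Matrix.J (Fin m) F

/-- the field coset. -/
theorem field_coset [Finite F] (hm : 2 ≤ m) (σ : F ≃+* F) (k : ℕ) (hk : orderOf σ = k)
    (hk0 : 0 < k) (g : ↥GSp) (h : (cG g * fA σ) ^ k = 1) :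
    ∃ h : ↥GSp, cG g * fA σ = cG h * fA σ * (cG h)⁻¹ := by
  have hσ : σ ^ k = 1 := hk ▸ pow_orderOf_eq_one σ
  rw [pow_cG_fA, hσ, map_one, mul_one] at h
  obtain ⟨u, hu⟩ := exists_scS_of_cG_eq_one hm h
  have hu' : nrm σ g.1 k = scG u := by rw [← nrmS_coe, hu]; rfl
  have hne : Nonempty (Fin m ⊕ Fin m) := ⟨Sum.inl ⟨0, by omega⟩⟩
  have h2 : uM σ u = u := by
    apply scG_injective (ι := Fin m ⊕ Fin m)
    rw [← mapG_scG]
    have e1 := nrm_succ σ g.1 k
    rw [nrm_succ', hσ, mapG_one', hu', scG_comm] at e1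
    exact (mul_left_cancel e1).symm
  obtain ⟨v, hv⟩ := exists_nU_eq σ k hk hk0 u⁻¹ (by rw [map_inv, h2])
  obtain ⟨h, hh⟩ := lang_GSp (by omega) σ k hk hk0 (scS v * g) (by
    apply Subtype.ext
    rw [nrmS_coe]
    show nrm σ (scG v * g.1) k = 1
    rw [nrm_scG_mul, hv, hu', ← map_mul, inv_mul_cancel, map_one])
  refine ⟨h, ?_⟩
  rw [conj_fA, ← hh, cG_scS_mul]

/-- in characteristic two every inner-diagonal automorphism is inner. -/
lemma range_cG_eq_inn [Finite F] [CharP F 2] (hm : 1 ≤ m) :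
    (cG : ↥GSp →* MulAut (Cfsg.PSp m F)).range = Cfsg.Inn (Cfsg.PSp m F) := by
  rw [inn_eq_map hm]
  apply le_antisymm
  · rintro _ ⟨g, rfl⟩
    have := Fintype.ofFinite F
    obtain ⟨d, hd⟩ := FiniteField.isSquare_of_char_two (ringChar.eq F 2) ((mu hm g : Fˣ) : F)
    have hd0 : d ≠ 0 := by
      rintro rfl
      rw [mul_zero] at hd
      exact (mu hm g).ne_zero hd
    refine ⟨scS (Units.mk0 d hd0)⁻¹ * g, ?_, cG_scS_mul _ _⟩
    rw [SetLike.mem_coe, MonoidHom.mem_ker, map_mul, mu_scS]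
    apply Units.ext
    simp only [Units.val_mul, Units.val_pow_eq_pow_val, Units.val_inv_eq_inv_val, Units.val_mk0,
      Units.val_one, hd]
    field_simp
  · rintro _ ⟨g, -, rfl⟩
    exact ⟨g, rfl⟩

theorem range_cG_normal' [Fintype F] (hm : 2 ≤ m) :
    ((cG : ↥GSp →* MulAut (Cfsg.PSp m F)).range).Normal := by
  obtain ⟨p, hp⟩ := CharP.exists F
  have hprime : Fact p.Prime := ⟨CharP.char_is_prime F p⟩
  by_cases h2 : p = 2
  · subst h2
    rw [range_cG_eq_inn (by omega)]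
    infer_instance
  · exact range_cG_normal p hm (fun _ => h2)

theorem row_S2713 [Fintype F] (hm : 2 ≤ m) (x δ : MulAut (Cfsg.PSp m F))
    (hx : Cfsg.IsFieldAutClassPSp x) {r : ℕ} (hr : r.Prime) (hxr : orderOf x = r)
    (hδ : δ ∈ Cfsg.inndiagPSp m F) :
    orderOf (δ * x) = r ↔ Cfsg.IsConjUnder (Cfsg.inndiagPSp m F) x (δ * x) := by
  rw [inndiagPSp_eq] at hδ ⊢
  constructor
  · intro hy
    have hD := range_cG_normal' (F := F) hm
    have hy' : (δ * x) ^ r = 1 := hy ▸ pow_orderOf_eq_one _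
    obtain ⟨α, σ, hσ, hstd⟩ := hx
    have e := eq_fA_of_isStd hstd
    have hord : orderOf σ = r := by
      rw [← orderOf_injective fA (fA_injective (F := F) hm) σ, ← e, orderOf_conj', hxr]
    refine conj_transport _ e hδ ?_ hy'
    rintro _ ⟨g, rfl⟩ hg
    obtain ⟨h, hh⟩ := field_coset hm σ r hord hr.pos g hg
    exact ⟨cG h, ⟨h, rfl⟩, hh⟩
  · rintro ⟨h, -, e⟩
    rw [e, orderOf_conj', hxr]

end Cfsg.Agent.Lib.Helper98.PSpF
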