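import Mathlib
import Cfsg.Agent.Lib.Helper98.PSpF4

set_option autoImplicit false
set_option linter.unusedSectionVars false
set_option linter.unusedVariables false

/-!
Centraliser in `PGSp` of a field automorphism and the splitting of its class (S2712).
-/

namespace Cfsg.Agent.Lib.Helper98.PSpF

open Matrix Cfsg.Agent.Lib.Helper13 Cfsg.Agent.Lib.Helper5 Cfsg.Agent.Lib.Helper94
open Cfsg.Agent.Lib.Helper14.PSpAut
open Cfsg.Agent.Lib.Helper43.PA (uM uM_coe nU nU_zero nU_succ hilbert90_units fixK mem_fixK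
  exists_nU_eq conj_transport orderOf_conj' fixU mem_fixU card_fixU exists_embedding
  orderOf_dvd_of_card cyclic_index splitClassCount_eq_index splitClassCount_conj
  centralizer_conj_equiv)
open scoped MatrixGroups

variable {F : Type*} [Field F] {m : ℕ}

local notation "V" => (Fin m ⊕ Fin m → F)
local notation "Sp" => Matrix.symplecticGroup (Fin m) F
local notation "B" => Cfsg.sympForm m F
local notation "GSp" => Cfsg.GSp m F
local notation "JJ" => Matrix.J (Fin m) F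

theorem mem_cent_fA_iff (hm : 2 ≤ m) (σ : F ≃+* F) (hfin : 0 < orderOf σ) (g : ↥GSp) :
    g ∈ (Subgroup.centralizer {(fA σ : MulAut (Cfsg.PSp m F))}).comap cG ↔
      ∃ v : Fˣ, mapGSp σ (scS v * g) = scS v * g := by
  rw [Subgroup.mem_comap, Subgroup.mem_centralizer_singleton_iff]
  constructor
  · intro h
    rw [fA_mul_cG, mul_left_inj] at h
    obtain ⟨u, hu⟩ := exists_scS_of_cG_eq hm h.symm
    have hu' : mapG σ g.1 = scG u * g.1 := congrArg Subtype.val hu
    have h1 := mapG_pow_of_scalar σ hu' (orderOf σ)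
    rw [pow_orderOf_eq_one, mapG_one'] at h1
    have hne : Nonempty (Fin m ⊕ Fin m) := ⟨Sum.inl ⟨0, by omega⟩⟩
    have h2 : nU σ u (orderOf σ) = 1 := by
      apply scG_injective (ι := Fin m ⊕ Fin m)
      rw [map_one]
      exact mul_eq_right.1 h1.symm
    obtain ⟨v, hv⟩ := hilbert90_units σ u _ rfl hfin h2
    refine ⟨v, ?_⟩
    rw [map_mul, mapGSp_scS, hu, ← mul_assoc, ← map_mul, hv, mul_comm, inv_mul_cancel_right]
  · rintro ⟨v, hv⟩
    rw [← cG_scS_mul v g, fA_mul_cG, hv]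

/-- multipliers of the centraliser. -/
theorem mu_cent_fA (hm : 2 ≤ m) (σ : F ≃+* F) (hfin : 0 < orderOf σ) :
    ((Subgroup.centralizer {(fA σ : MulAut (Cfsg.PSp m F))}).comap cG).map
      (mu (F := F) (m := m) (by omega)) = (powMonoidHom 2 : Fˣ →* Fˣ).range ⊔ fixU σ := by
  have hm1 : 1 ≤ m := by omega
  apply le_antisymm
  · rintro _ ⟨g, hg, rfl⟩
    obtain ⟨v, hv⟩ := (mem_cent_fA_iff hm σ hfin g).1 hg
    have h1 : mu hm1 g = (v⁻¹) ^ 2 * mu hm1 (scS v * g) := by
      rw [map_mul, mu_scS, ← mul_assoc, ← mul_pow, inv_mul_cancel, one_pow, one_mul]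
    rw [h1]
    refine Subgroup.mul_mem _ (Subgroup.mem_sup_left ⟨v⁻¹, rfl⟩) (Subgroup.mem_sup_right ?_)
    rw [mem_fixU, ← mu_mapGSp, hv]
  · rw [sup_le_iff]
    constructor
    · rintro _ ⟨u, rfl⟩
      refine ⟨scS u, ?_, mu_scS hm1 u⟩
      apply (mem_cent_fA_iff hm σ hfin _).2
      refine ⟨u⁻¹, ?_⟩
      rw [← map_mul, inv_mul_cancel, map_one, map_one]
    · intro w hw
      refine ⟨dlS w, ?_, mu_dlS hm1 w⟩
      apply (mem_cent_fA_iff hm σ hfin _).2
      refine ⟨1, ?_⟩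
      rw [map_one, one_mul, mapGSp_dlS, mem_fixU.1 hw]

theorem split_fA [Fintype F] {p f : ℕ} [hp : Fact p.Prime] (hF : Fintype.card F = p ^ f)
    (hf : 1 ≤ f) (hm : 2 ≤ m) (σ : F ≃+* F) :
    Cfsg.splitClassCount (cG : ↥GSp →* _).range (Cfsg.Inn (Cfsg.PSp m F)) (fA σ) =
      Nat.gcd 2 ((p ^ f - 1) / (p ^ (f / orderOf σ) - 1)) := by
  have hfin : Finite (F ≃+* F) := Finite.of_injective (fun e => (e : F → F)) DFunLike.coe_injective
  have hm1 : 1 ≤ m := by omega
  rw [inn_eq_map hm1, splitClassCount_eq_index _ _ (mu_surjective hm1),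
    mu_cent_fA hm σ (orderOf_pos σ), cyclic_index]
  congr 1
  have h1 := Subgroup.card_mul_index (fixU σ)
  rw [card_fixU hF hf, Nat.card_units, Nat.card_eq_fintype_card, hF] at h1
  rw [← h1]
  have hpos : 0 < p ^ (f / orderOf σ) - 1 := by
    have h2 : 0 < Nat.card (fixU σ) := Nat.card_pos
    rwa [card_fixU hF hf] at h2
  exact (Nat.mul_div_cancel_left _ hpos).symm

/-! ### the subfield subgroup -/

section Sub

variable {F₀ : Type*} [Field F₀] (j : F₀ →+* F)

lemma map_mem_GSp_iff (hm : 1 ≤ m) (g₀ : GL (Fin m ⊕ Fin m) F₀) :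
    Matrix.GeneralLinearGroup.map j g₀ ∈ GSp ↔ g₀ ∈ Cfsg.GSp m F₀ := by
  rw [mem_GSp_iff, mem_GSp_iff]
  have e : (Matrix.GeneralLinearGroup.map j g₀).1ᵀ * JJ * (Matrix.GeneralLinearGroup.map j g₀).1 =
      (g₀.1ᵀ * Matrix.J (Fin m) F₀ * g₀.1).map j := by
    rw [Matrix.map_mul, Matrix.map_mul, J_map]
    rfl
  rw [e]
  constructor
  · rintro ⟨c, hc⟩
    set M := g₀.1ᵀ * Matrix.J (Fin m) F₀ * g₀.1 with hM
    set i0 : Fin m := ⟨0, by omega⟩
    have hJ : JJ (Sum.inr i0) (Sum.inl i0) = 1 := by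
      simp [Matrix.J, Matrix.fromBlocks]
    have h1 : j (M (Sum.inr i0) (Sum.inl i0)) = c := by
      have := congrFun (congrFun hc (Sum.inr i0)) (Sum.inl i0)
      rw [Matrix.smul_apply, hJ, smul_eq_mul, mul_one] at this
      exact this
    have h0 : M (Sum.inr i0) (Sum.inl i0) ≠ 0 := by
      intro h
      rw [h, map_zero] at h1
      exact c.ne_zero h1.symm
    refine ⟨Units.mk0 _ h0, ?_⟩
    apply Matrix.map_injective j.injective
    show M.map j = (((Units.mk0 _ h0 : F₀ˣ) : F₀) • Matrix.J (Fin m) F₀).map j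
    rw [hc, Units.val_mk0, ← h1]
    ext a b
    have hab : j (Matrix.J (Fin m) F₀ a b) = JJ a b := congrFun (congrFun (J_map j) a) b
    simp only [Matrix.smul_apply, Matrix.map_apply, smul_eq_mul, map_mul, hab]
  · rintro ⟨c, hc⟩
    refine ⟨Units.map j.toMonoidHom c, ?_⟩
    rw [hc]
    ext a b
    have hab : j (Matrix.J (Fin m) F₀ a b) = JJ a b := congrFun (congrFun (J_map j) a) b
    simp only [Matrix.smul_apply, Matrix.map_apply, smul_eq_mul, map_mul, hab]
    rfl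

/-- the subfield subgroup. -/
noncomputable def mapIota (hm : 1 ≤ m) : ↥(Cfsg.GSp m F₀) →* ↥GSp where
  toFun g₀ := ⟨Matrix.GeneralLinearGroup.map j g₀.1, (map_mem_GSp_iff j hm g₀.1).2 g₀.2⟩
  map_one' := Subtype.ext (map_one _)
  map_mul' a b := Subtype.ext (map_mul _ _ _)

/-- `C_{PGSp(F)}(φ) ≅ PGSp(F₀)`. -/
theorem cent_fA_equiv (hm : 2 ≤ m) (σ : F ≃+* F) (hfin : 0 < orderOf σ)
    (hj : ∀ x, σ x = x ↔ ∃ y, j y = x) :
    Nonempty (↥((cG : ↥GSp →* _).range ⊓
      Subgroup.centralizer {(fA σ : MulAut (Cfsg.PSp m F))}) ≃* Cfsg.PGSp m F₀) := by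
  have hm1 : 1 ≤ m := by omega
  let ψ : ↥(Cfsg.GSp m F₀) →* MulAut (Cfsg.PSp m F) := cG.comp (mapIota j hm1)
  have hrange : ψ.range = (cG : ↥GSp →* _).range ⊓
      Subgroup.centralizer {(fA σ : MulAut (Cfsg.PSp m F))} := by
    ext y
    constructor
    · rintro ⟨g₀, rfl⟩
      refine ⟨⟨_, rfl⟩, ?_⟩
      have : mapIota j hm1 g₀ ∈ (Subgroup.centralizer
          {(fA σ : MulAut (Cfsg.PSp m F))}).comap cG := by
        rw [mem_cent_fA_iff hm σ hfin]
        refine ⟨1, ?_⟩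
        rw [map_one, one_mul]
        apply Subtype.ext
        exact (exists_map_eq j σ hj _).2 ⟨g₀.1, rfl⟩
      exact this
    · rintro ⟨⟨g, rfl⟩, hg⟩
      have hg' : g ∈ (Subgroup.centralizer
          {(fA σ : MulAut (Cfsg.PSp m F))}).comap cG := hg
      rw [mem_cent_fA_iff hm σ hfin] at hg'
      obtain ⟨v, hv⟩ := hg'
      obtain ⟨g₀, hg₀⟩ := (exists_map_eq j σ hj _).1 (congrArg Subtype.val hv)
      have hmem : g₀ ∈ Cfsg.GSp m F₀ := by
        rw [← map_mem_GSp_iff j hm1, hg₀]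
        exact (scS v * g).2
      refine ⟨⟨g₀, hmem⟩, ?_⟩
      show cG (mapIota j hm1 ⟨g₀, hmem⟩) = cG g
      have e : mapIota j hm1 ⟨g₀, hmem⟩ = scS v * g := Subtype.ext hg₀
      rw [e, cG_scS_mul]
  have hker : ψ.ker = (Cfsg.Geo.scalars (Fin m ⊕ Fin m) F₀).subgroupOf (Cfsg.GSp m F₀) := by
    ext g₀
    rw [MonoidHom.mem_ker, Subgroup.mem_subgroupOf, Cfsg.Geo.mem_scalars_iff]
    show cG (mapIota j hm1 g₀) = 1 ↔ _
    constructor
    · intro h
      obtain ⟨a, ha⟩ := exists_scS_of_cG_eq_one hm h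
      have h1 : ∀ i k, j (g₀.1.1 i k) = if i = k then (a : F) else 0 := by
        intro i k
        have := congrArg (fun g : ↥GSp => g.1.1 i k) ha
        simp only [scS_coe, scG_coe, Matrix.scalar_apply, Matrix.diagonal_apply] at this
        exact this
      set i0 : Fin m ⊕ Fin m := Sum.inl ⟨0, by omega⟩
      have hdet : g₀.1.1 i0 i0 ≠ 0 := by
        intro h0
        have := h1 i0 i0
        rw [h0, map_zero, if_pos rfl] at this
        exact a.ne_zero this.symm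
      refine ⟨Units.mk0 _ hdet, ?_⟩
      ext i k
      apply j.injective
      rw [h1]
      by_cases h : i = k
      · subst h
        simp only [if_true, Units.val_mk0, Matrix.smul_apply, Matrix.one_apply_eq, smul_eq_mul,
          mul_one]
        rw [h1, if_pos rfl]
      · simp [h]
    · rintro ⟨c, hc⟩
      have e : mapIota j hm1 g₀ = scS (Units.map j.toMonoidHom c) := by
        apply Subtype.ext
        apply Units.ext
        show g₀.1.1.map j = _
        rw [hc, scS_coe, scG_coe]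
        ext i k
        by_cases h : i = k
        · subst h; simp
        · simp [h]
      rw [e, cG_scS]
  refine ⟨((MulEquiv.subgroupCongr hrange).symm.trans
    (QuotientGroup.quotientKerEquivRange ψ).symm).trans (QuotientGroup.quotientMulEquivOfEq hker)⟩

end Sub

lemma gcd_arith {p f r : ℕ} (hp : p.Prime) (hf : 1 ≤ f) (hr : 0 < r) (hrf : r ∣ f) :
    Nat.gcd 2 ((p ^ f - 1) / (p ^ (f / r) - 1)) = Nat.gcd (Nat.gcd 2 (p ^ f - 1)) r := by
  obtain ⟨k, rfl⟩ := hrf
  rw [Nat.mul_div_cancel_left k hr]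
  have hk : k ≠ 0 := by
    rintro rfl
    simp at hf
  have hq2 : 2 ≤ p ^ k := le_trans hp.two_le (Nat.le_self_pow hk p)
  have e : p ^ (r * k) = (p ^ k) ^ r := by rw [mul_comm, pow_mul]
  rw [e, ← Nat.geomSum_eq hq2 r]
  generalize p ^ k = q at hq2
  have hq1 : 1 ≤ q ^ r := Nat.one_le_pow _ _ (by omega)
  rcases Nat.even_or_odd q with hq | hq
  · have h1 : Odd (∑ i ∈ Finset.range r, q ^ i) := by
      obtain ⟨r', rfl⟩ : ∃ r', r = r' + 1 := ⟨r - 1, by omega⟩
      rw [Finset.sum_range_succ', pow_zero]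
      apply Even.add_one
      apply Finset.even_sum
      intro i _
      exact hq.pow_of_ne_zero (by omega)
    have h2 : Odd (q ^ r - 1) := by
      have h3 : Even (q ^ r) := hq.pow_of_ne_zero (by omega)
      exact Nat.Even.sub_odd hq1 h3 odd_one
    rw [Nat.coprime_two_left.2 h1, Nat.coprime_two_left.2 h2, Nat.gcd_one_left]
  · have h1 : ∀ r : ℕ, (∑ i ∈ Finset.range r, q ^ i) % 2 = r % 2 := by
      intro r
      induction r with
      | zero => simp
      | succ r ih =>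
        rw [Finset.sum_range_succ, Nat.add_mod, ih, Nat.odd_iff.1 (hq.pow)]
        omega
    have h2 : Even (q ^ r - 1) := Nat.Odd.sub_odd hq.pow odd_one
    have h3 : Nat.gcd 2 (q ^ r - 1) = 2 := Nat.gcd_eq_left h2.two_dvd
    rw [h3, Nat.gcd_rec, h1, ← Nat.gcd_rec]

theorem row_S2712 [Fintype F] {p f : ℕ} [Fact p.Prime] (hF : Fintype.card F = p ^ f) (hf : 1 ≤ f)
    (hm : 2 ≤ m) (x : MulAut (Cfsg.PSp m F)) (hx : Cfsg.IsFieldAutClassPSp x) {r : ℕ}
    (hr : r.Prime) (hxr : orderOf x = r) (F₀ : Type*) [Field F₀] [Fintype F₀]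
    (hF₀ : Fintype.card F₀ = p ^ (f / r)) :
    r ∣ f ∧ Nonempty (↥(Cfsg.inndiagPSp m F ⊓ Subgroup.centralizer {x}) ≃* Cfsg.PGSp m F₀) ∧
      Cfsg.splitClassCount (Cfsg.inndiagPSp m F) (Cfsg.Inn (Cfsg.PSp m F)) x =
        Nat.gcd (Nat.gcd 2 (p ^ f - 1)) r := by
  rw [inndiagPSp_eq]
  obtain ⟨α, σ, hσ, hstd⟩ := hx
  have e := eq_fA_of_isStd hstd
  have hord : orderOf σ = r := by
    rw [← orderOf_injective fA (fA_injective (F := F) hm) σ, ← e, orderOf_conj', hxr]
  have hD := range_cG_normal' (F := F) hm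
  have hrf : r ∣ f := hord ▸ orderOf_dvd_of_card hF σ
  obtain ⟨j, hj⟩ := exists_embedding hF hf σ F₀ (by rw [hF₀, hord])
  refine ⟨hrf, ?_, ?_⟩
  · obtain ⟨E1⟩ := centralizer_conj_equiv (cG : ↥GSp →* _).range α x
    rw [e] at E1
    obtain ⟨E2⟩ := cent_fA_equiv j hm σ (hord ▸ hr.pos) hj
    exact ⟨E1.trans E2⟩
  · have hI : (Cfsg.Inn (Cfsg.PSp m F)).Normal := by infer_instance
    rw [← splitClassCount_conj _ _ α x, e, split_fA hF hf hm σ, hord,
      gcd_arith (Fact.out) hf hr.pos hrf]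

end Cfsg.Agent.Lib.Helper98.PSpF
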