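import Mathlib
import Cfsg.Agent.Lib.Helper98.PSpF5
import Cfsg.Agent.Lib.Helper14.PSp4Aut
import Cfsg.Agent.Lib.Helper5.SpSimple

set_option autoImplicit false
set_option linter.unusedSectionVars false
set_option linter.unusedVariables false

/-!
Automorphisms of `PSp` fixing the subfield subgroup; the group `PΓSp` inside `Aut(PSp)`.
-/

namespace Cfsg.Agent.Lib.Helper98.PSpF

open Matrix Cfsg.Agent.Lib.Helper13 Cfsg.Agent.Lib.Helper5 Cfsg.Agent.Lib.Helper94
open Cfsg.Agent.Lib.Helper14.PSpAut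
open Cfsg.Agent.Lib.Helper43.PA (uM uM_coe fixK mem_fixK)
open scoped MatrixGroups

variable {F : Type*} [Field F] {m : ℕ}

local notation "V" => (Fin m ⊕ Fin m → F)
local notation "Sp" => Matrix.symplecticGroup (Fin m) F
local notation "B" => Cfsg.sympForm m F
local notation "GSp" => Cfsg.GSp m F
local notation "JJ" => Matrix.J (Fin m) F

lemma mem_zpowers_of_fix [Finite F] (σ τ : F ≃+* F) (h : ∀ x, σ x = x → τ x = x) :
    τ ∈ Subgroup.zpowers σ := by
  have hfin : Finite (F ≃+* F) := Finite.of_injective (fun e => (e : F → F)) DFunLike.coe_injective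
  let f : F →ₐ[FixedPoints.subfield (Subgroup.zpowers σ) F] F :=
    { (τ : F →+* F) with commutes' := fun x => h x.1 (mem_fixK.1 x.2) }
  obtain ⟨g, hg⟩ := (FixedPoints.toAlgHom_bijective (Subgroup.zpowers σ) F).2 f
  have : τ = g.1 := by
    ext x
    exact (congrArg (fun f : F →ₐ[FixedPoints.subfield (Subgroup.zpowers σ) F] F => f x) hg).symm
  rw [this]
  exact g.2

lemma matrix_scalar_of_basis {ι : Type*} [Fintype ι] [DecidableEq ι] [hne : Nonempty ι]
    (M : Matrix ι ι F)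
    (h1 : ∀ i, ∃ a : F, M *ᵥ Pi.single i 1 = a • Pi.single i 1)
    (h2 : ∀ i j, ∃ a : F, M *ᵥ (Pi.single i 1 + Pi.single j 1) =
      a • (Pi.single i 1 + Pi.single j 1 : ι → F)) :
    ∃ a : F, M = Matrix.scalar ι a := by
  choose a ha using h1
  have hM : ∀ i j, M i j = if i = j then a j else 0 := by
    intro i j
    have := congrFun (ha j) i
    rw [Matrix.mulVec_single_one] at this
    simp only [Matrix.col_apply, Pi.smul_apply, Pi.single_apply, smul_eq_mul, mul_ite, mul_one,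
      mul_zero] at this
    exact this
  have hconst : ∀ i j, a i = a j := by
    intro i j
    by_cases hij : i = j
    · rw [hij]
    obtain ⟨b, hb⟩ := h2 i j
    rw [Matrix.mulVec_add, ha, ha] at hb
    have e1 := congrFun hb i
    have e2 := congrFun hb j
    simp [hij, Ne.symm hij] at e1 e2
    rw [e1, e2]
  obtain ⟨i0⟩ := hne
  refine ⟨a i0, ?_⟩
  ext i j
  rw [hM, Matrix.scalar_apply, Matrix.diagonal_apply, hconst j i0]

lemma thV_single (σ : F ≃+* F) (i : Fin m ⊕ Fin m) : thV σ (Pi.single i 1 : V) = Pi.single i 1 := by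
  ext j
  simp only [thV, Pi.single_apply]
  split_ifs <;> simp

lemma thV_add' (σ : F ≃+* F) (x y : V) : thV σ (x + y) = thV σ x + thV σ y := by
  ext i; simp [thV]

lemma single_add_ne_zero (i j : Fin m ⊕ Fin m) (h : i ≠ j) :
    (Pi.single i 1 + Pi.single j 1 : V) ≠ 0 := by
  intro h0
  have := congrFun h0 i
  simp [h] at this

/-- an element of `PΓSp` fixing the transvections defined over the fixed field of `σ`. -/
lemma fix_analysis (hm : 2 ≤ m) (σ : F ≃+* F) (g : ↥GSp) (τ : F ≃+* F)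
    (h : ∀ (v : V) (c : F), thV σ v = v → σ c = c →
      (cG g * fA τ : MulAut (Cfsg.PSp m F)) (mkP (tv v c)) = mkP (tv v c)) :
    cG g = 1 ∧ ∀ c, σ c = c → τ c = c := by
  have hm1 : 1 ≤ m := by omega
  have hne : Nonempty (Fin m ⊕ Fin m) := ⟨Sum.inl ⟨0, by omega⟩⟩
  have key : ∀ (v : V) (c : F), thV σ v = v → σ c = c →
      tv (g.1.1 *ᵥ thV τ v) (τ c * (((mu hm1 g)⁻¹ : Fˣ) : F)) = tv v c := by
    intro v c hv hc
    have := h v c hv hc
    rw [MulAut.mul_apply, fA_mk, fieldSp_tv, cG_mk, conjSp_tv hm1] at this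
    exact tv_eq_of_mkP_eq hm this
  have key2 : ∀ v : V, v ≠ 0 → thV σ v = v → thV τ v = v → ∃ a : F, g.1.1 *ᵥ v = a • v := by
    intro v hv0 hv hv'
    have h1 := key v 1 hv (map_one σ)
    rw [hv'] at h1
    have hgv : g.1.1 *ᵥ v ≠ 0 := by
      intro h0
      apply hv0
      have := gl_inv_mulVec' g.1 v
      rw [h0, Matrix.mulVec_zero] at this
      exact this.symm
    exact span_of_tv_eq hgv (by rw [map_one, one_mul]; exact Units.ne_zero _) h1
  obtain ⟨a, ha⟩ := matrix_scalar_of_basis g.1.1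
    (fun i => key2 _ (by
      intro h0
      have := congrFun h0 i
      simp at this) (thV_single σ i) (thV_single τ i))
    (fun i j => by
      by_cases hij : i = j
      · subst hij
        obtain ⟨a, ha⟩ := key2 (Pi.single i 1) (by
          intro h0
          have := congrFun h0 i
          simp at this) (thV_single σ i) (thV_single τ i)
        exact ⟨a, by rw [Matrix.mulVec_add, ha, smul_add]⟩
      · exact key2 _ (single_add_ne_zero i j hij)
          (by rw [thV_add', thV_single, thV_single]) (by rw [thV_add', thV_single, thV_single]))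
  have ha0 : a ≠ 0 := by
    rintro rfl
    have hu : IsUnit g.1.1 := g.1.isUnit
    rw [ha, map_zero] at hu
    exact not_isUnit_zero hu
  have hg : g = scS (Units.mk0 a ha0) := Subtype.ext (Units.ext ha)
  have hg1 : cG g = 1 := by rw [hg, cG_scS]
  refine ⟨hg1, fun c hc => ?_⟩
  have h1 := h (eL ⟨0, by omega⟩) c (thV_single σ _) hc
  rw [hg1, one_mul, fA_mk, fieldSp_tv] at h1
  have h2 := tv_eq_of_mkP_eq hm h1
  have h3 : thV τ (eL ⟨0, by omega⟩ : V) = eL ⟨0, by omega⟩ := thV_single τ _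
  rw [h3] at h2
  exact tv_inj (eL_ne_zero _) h2

lemma eq_one_of_cG_mul_fA_eq_one (hm : 2 ≤ m) {g : ↥GSp} {τ : F ≃+* F} (h : cG g * fA τ = 1) :
    τ = 1 := by
  obtain ⟨-, h2⟩ := fix_analysis hm 1 g τ (fun v c _ _ => by rw [h]; rfl)
  ext c
  exact h2 c rfl

/-- the image of `PΓSp` in `Aut(PSp)`. -/
def gam (m : ℕ) (F : Type*) [Field F] : Subgroup (MulAut (Cfsg.PSp m F)) where
  carrier := {β | ∃ (g : ↥(Cfsg.GSp m F)) (σ : F ≃+* F), β = cG g * fA σ}
  one_mem' := ⟨1, 1, by simp⟩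
  mul_mem' := by
    rintro _ _ ⟨g, σ, rfl⟩ ⟨g', σ', rfl⟩
    refine ⟨g * mapGSp σ g', σ * σ', ?_⟩
    rw [map_mul, map_mul, mul_assoc, ← mul_assoc (fA σ), fA_mul_cG]
    simp only [mul_assoc]
  inv_mem' := by
    rintro _ ⟨g, σ, rfl⟩
    refine ⟨mapGSp σ⁻¹ g⁻¹, σ⁻¹, ?_⟩
    rw [← fA_mul_cG, _root_.mul_inv_rev, map_inv, map_inv]

lemma mem_gam {β : MulAut (Cfsg.PSp m F)} :
    β ∈ gam m F ↔ ∃ (g : ↥GSp) (σ : F ≃+* F), β = cG g * fA σ := Iff.rfl

lemma sq_mem_gam [Fintype F] (r : ℕ) [Fact r.Prime] [CharP F r] (hm : 2 ≤ m)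
    (β : MulAut (Cfsg.PSp m F)) : β * β ∈ gam m F := by
  by_cases h4 : m = 2 ∧ r = 2
  · obtain ⟨rfl, rfl⟩ := h4
    obtain ⟨τ, hτ⟩ := exists_graph (F := F) (fun x => by
      obtain ⟨d, hd⟩ := FiniteField.isSquare_of_char_two (ringChar.eq F 2) x
      exact ⟨d, by rw [hd, sq]⟩)
    have hτ2 : τ * τ ∈ gam 2 F := by
      rw [tau_sq τ hτ]
      exact ⟨1, fr, by simp⟩
    rcases aut_cases τ hτ β with h | h
    · exact (gam 2 F).mul_mem h h
    · rcases aut_cases τ hτ (τ * β * τ⁻¹) with h' | h'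
      · have h1 : τ⁻¹ ∈ gam 2 F := by
          have := (gam 2 F).mul_mem ((gam 2 F).inv_mem h) h'
          have e : (τ * β)⁻¹ * (τ * β * τ⁻¹) = τ⁻¹ := by group
          rwa [e] at this
        have hβ : β ∈ gam 2 F := by
          have := (gam 2 F).mul_mem h1 h
          rwa [inv_mul_cancel_left] at this
        exact (gam 2 F).mul_mem hβ hβ
      · have e : β * β = (τ * τ)⁻¹ * (τ * (τ * β * τ⁻¹)) * (τ * β) := by group
        rw [e]
        exact (gam 2 F).mul_mem ((gam 2 F).mul_mem ((gam 2 F).inv_mem hτ2) h') h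
  · exact aut_factor' r hm (fun h2 h3 => h4 ⟨h2, h3⟩) (β * β)

lemma mem_gam_of_order [Fintype F] (r : ℕ) [Fact r.Prime] [CharP F r] (hm : 2 ≤ m)
    (β : MulAut (Cfsg.PSp m F)) {p : ℕ} (hp : p.Prime) (hpr : p ≠ r) (hord : orderOf β = p) :
    β ∈ gam m F := by
  by_cases h4 : m = 2 ∧ r = 2
  · have hp2 : p ≠ 2 := by rw [h4.2] at hpr; exact hpr
    obtain ⟨k, hk⟩ := hp.odd_of_ne_two hp2
    have e : β = (β * β) ^ (k + 1) := by
      rw [← sq, ← pow_mul, show 2 * (k + 1) = p + 1 by omega, pow_succ, ← hord, pow_orderOf_eq_one,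
        one_mul]
    rw [e]
    exact (gam m F).pow_mem (sq_mem_gam r hm β) _
  · exact aut_factor' r hm (fun h2 h3 => h4 ⟨h2, h3⟩) β

lemma mem_gam_of_fix_tv [Fintype F] (r : ℕ) [Fact r.Prime] [CharP F r] (hm : 2 ≤ m)
    (β : MulAut (Cfsg.PSp m F)) {e : V} (he : e ≠ 0) (h : β (mkP (tv e 1)) = mkP (tv e 1)) :
    β ∈ gam m F := by
  by_cases h4 : m = 2 ∧ r = 2
  · obtain ⟨rfl, rfl⟩ := h4
    rcases dich β he with h1 | h1
    · exact aut_factor_of_tv' 2 le_rfl β he h1
    · exfalso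
      obtain ⟨u1, f1, huf, h2⟩ := h1
      obtain ⟨w, hw, hw', hβ⟩ := h2 1
      have hw0 : w ≠ 0 := by
        rintro rfl
        apply tv_one_ne β he
        rw [hβ, E_zero_zero, map_one]
      exact E_ne_tv huf hw hw' hw0 1 (mkP_inj2 (hβ.symm.trans h))
  · exact aut_factor' r hm (fun h2 h3 => h4 ⟨h2, h3⟩) β

end Cfsg.Agent.Lib.Helper98.PSpF
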