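import Mathlib
import Cfsg.Agent.Lib.Helper98.PSpF6
import Cfsg.Agent.Lib.Helper98.LB0

set_option autoImplicit false
set_option linter.unusedSectionVars false
set_option linter.unusedVariables false

/-!
Failure of local balance for `PSp` (S2730).
-/

namespace Cfsg.Agent.Lib.Helper98.PSpF

open Matrix Cfsg.Agent.Lib.Helper13 Cfsg.Agent.Lib.Helper5 Cfsg.Agent.Lib.Helper94
open Cfsg.Agent.Lib.Helper14.PSpAut
open Cfsg.Agent.Lib.Helper43.PA (uM uM_coe fixK mem_fixK)
open scoped MatrixGroups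

variable {F : Type*} [Field F] {m : ℕ}

local notation "V" => (Fin m ⊕ Fin m → F)
local notation "Sp" => Matrix.symplecticGroup (Fin m) F
local notation "B" => Cfsg.sympForm m F
local notation "GSp" => Cfsg.GSp m F
local notation "JJ" => Matrix.J (Fin m) F

/-! ### the centre -/

lemma scalar_mem_center {s : Sp} {a : F} (h : s.1 = Matrix.scalar _ a) :
    s ∈ Subgroup.center Sp := by
  rw [Subgroup.mem_center_iff]
  intro t
  apply Subtype.ext
  change t.1 * s.1 = s.1 * t.1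
  rw [h]
  exact ((Matrix.scalar_commute a (fun r => mul_comm _ _) t.1)).symm

lemma center_sq [Fintype F] (hm : 1 ≤ m) {z : Sp} (hz : z ∈ Subgroup.center Sp) : z * z = 1 := by
  have h1 : orderOf (⟨z, hz⟩ : Subgroup.center Sp) ∣ 2 :=
    (orderOf_dvd_natCard _).trans (by rw [card_center_sp m hm]; exact Nat.gcd_dvd_left _ _)
  have h2 := orderOf_dvd_iff_pow_eq_one.1 h1
  have h3 := congrArg Subtype.val h2
  rw [← sq]
  exact h3

lemma conj_injective (hm : 2 ≤ m) :
    Function.Injective (MulAut.conj : Cfsg.PSp m F →* MulAut (Cfsg.PSp m F)) := by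
  rw [injective_iff_map_eq_one]
  intro k hk
  obtain ⟨s, rfl⟩ := mkP_surj k
  rw [conj_mk_eq_cG] at hk
  obtain ⟨u, hu⟩ := exists_scS_of_cG_eq_one hm hk
  rw [mkP_eq_one]
  exact scalar_mem_center (a := (u : F)) (congrArg (fun g : ↥GSp => g.1.1) hu)

/-! ### squares lie in the commutator subgroup -/

lemma sq_mem_commutator [Fintype F] (hm : 2 ≤ m) (s : Sp) : s * s ∈ commutator Sp := by
  by_cases h2 : (2 : F) = 0
  · rw [← Abelianization.ker_of, MonoidHom.mem_ker, map_mul]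
    let H : Subgroup Sp :=
      { carrier := {s | Abelianization.of s * Abelianization.of s = 1}
        one_mem' := by simp
        mul_mem' := by
          intro a b ha hb
          show Abelianization.of (a * b) * Abelianization.of (a * b) = 1
          rw [map_mul, mul_mul_mul_comm, ha, hb, one_mul]
        inv_mem' := by
          intro a ha
          show Abelianization.of a⁻¹ * Abelianization.of a⁻¹ = 1
          rw [map_inv, ← _root_.mul_inv_rev, ha, inv_one] }
    have hH : H = ⊤ := by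
      rw [eq_top_iff, ← Cfsg.Agent.S0765.result m, Subgroup.closure_le]
      rintro A ⟨w, c, hA⟩
      have hA' : A = tv w c := Subtype.ext hA
      show Abelianization.of A * Abelianization.of A = 1
      rw [← map_mul, hA', tv_mul_tv, ← two_mul, h2, zero_mul, tv_zero_right, map_one]
    have : s ∈ H := by rw [hH]; trivial
    exact this
  · have h3 : 3 ≤ Fintype.card F := by
      by_contra hlt
      have h4 : 1 < Fintype.card F := Fintype.one_lt_card
      have h5 : Fintype.card F = 2 := by omega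
      apply h2
      have := Nat.cast_card_eq_zero F
      rw [h5] at this
      exact_mod_cast this
    rw [sp_commutator_eq_top (by
      rcases hm.eq_or_lt with h | h
      · exact Or.inr (Or.inl ⟨h.symm, h3⟩)
      · exact Or.inl h)]
    trivial

/-! ### an involution -/

/-- `diag(-1,1,…,1,-1,1,…,1)`. -/
noncomputable def invS (hm : 1 ≤ m) : Sp :=
  ⟨Matrix.diagonal (Sum.elim (fun i => if i = ⟨0, by omega⟩ then -1 else 1)
    (fun i => if i = ⟨0, by omega⟩ then -1 else 1)), by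
    rw [mem_symplecticGroup_iff_preserves]
    intro u v
    rw [sympForm_eq_sum, sympForm_eq_sum]
    apply Finset.sum_congr rfl
    intro i _
    simp only [Matrix.mulVec_diagonal, Sum.elim_inl, Sum.elim_inr]
    split_ifs <;> ring⟩

lemma invS_coe (hm : 1 ≤ m) : (invS (F := F) hm).1 =
    Matrix.diagonal (Sum.elim (fun i => if i = ⟨0, by omega⟩ then -1 else 1)
    (fun i => if i = ⟨0, by omega⟩ then -1 else 1)) := rfl

lemma invS_mul_self (hm : 1 ≤ m) : invS (F := F) hm * invS hm = 1 := by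
  apply Subtype.ext
  show (invS (F := F) hm).1 * (invS (F := F) hm).1 = 1
  rw [invS_coe, Matrix.diagonal_mul_diagonal, ← Matrix.diagonal_one]
  congr 1
  ext i
  rcases i with i | i <;> simp only [Sum.elim_inl, Sum.elim_inr] <;> split_ifs <;> simp

lemma fieldSp_invS (hm : 1 ≤ m) (σ : F ≃+* F) : fieldSp σ (invS (F := F) hm) = invS hm := by
  apply Subtype.ext
  rw [fieldSp_coe, invS_coe]
  ext i j
  by_cases h : i = j
  · subst h
    rcases i with i | i <;>
      simp only [Matrix.map_apply, Matrix.diagonal_apply_eq, Sum.elim_inl, Sum.elim_inr] <;>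
      split_ifs <;> simp
  · simp [Matrix.diagonal_apply_ne _ h]

lemma invS_not_center (hm : 2 ≤ m) (h2 : (2 : F) ≠ 0) :
    invS (F := F) (by omega) ∉ Subgroup.center Sp := by
  intro h
  obtain ⟨a, ha⟩ := sp_center_scalar m _ h
  have h0 := congrFun (congrFun ha (Sum.inl ⟨0, by omega⟩)) (Sum.inl ⟨0, by omega⟩)
  have h1 := congrFun (congrFun ha (Sum.inl ⟨1, by omega⟩)) (Sum.inl ⟨1, by omega⟩)
  rw [invS_coe] at h0 h1
  simp only [Matrix.diagonal_apply_eq, Sum.elim_inl, Matrix.scalar_apply, if_true] at h0 h1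
  rw [if_neg (by simp [Fin.ext_iff])] at h1
  apply h2
  linear_combination h1 - h0

/-! ### the subfield subgroup -/

section Sub

variable {F₀ : Type*} [Field F₀] (j : F₀ →+* F)

/-- `Sp(F₀) → Sp(F)`. -/
noncomputable def mapSp : Matrix.symplecticGroup (Fin m) F₀ →* Sp where
  toFun s := ⟨s.1.map j, by
    rw [SymplecticGroup.mem_iff, ← J_map j, ← Matrix.transpose_map, ← Matrix.map_mul,
      ← Matrix.map_mul, SymplecticGroup.mem_iff.1 s.2]⟩
  map_one' := by
    apply Subtype.ext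
    show (1 : Matrix (Fin m ⊕ Fin m) (Fin m ⊕ Fin m) F₀).map j = 1
    simp
  map_mul' a b := by
    apply Subtype.ext
    exact Matrix.map_mul

lemma mapSp_coe (s : Matrix.symplecticGroup (Fin m) F₀) : (mapSp j s).1 = s.1.map j := rfl

variable {j} {σ : F ≃+* F} (hj : ∀ x, σ x = x ↔ ∃ y, j y = x)

include hj

lemma fieldSp_mapSp (s : Matrix.symplecticGroup (Fin m) F₀) :
    fieldSp σ (mapSp j s) = mapSp j s := by
  apply Subtype.ext
  ext a b
  exact (hj _).2 ⟨s.1 a b, rfl⟩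

lemma exists_mapSp_eq (s : Sp) (h : fieldSp σ s = s) : ∃ s₀, mapSp j s₀ = s := by
  have h1 : ∀ a b, ∃ y, j y = s.1 a b := by
    intro a b
    rw [← hj]
    exact congrArg (fun g : Sp => g.1 a b) h
  choose M hM using h1
  have e1 : (Matrix.of M).map j = s.1 := by ext a b; exact hM a b
  refine ⟨⟨Matrix.of M, ?_⟩, Subtype.ext e1⟩
  rw [SymplecticGroup.mem_iff]
  apply Matrix.map_injective j.injective
  show (Matrix.of M * Matrix.J (Fin m) F₀ * (Matrix.of M)ᵀ).map j = (Matrix.J (Fin m) F₀).map j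
  rw [Matrix.map_mul, Matrix.map_mul, Matrix.transpose_map, e1, J_map, SymplecticGroup.mem_iff.1 s.2]

end Sub

lemma commutator_top_of_two_ne_zero [Fintype F] (hm : 2 ≤ m) (h2 : (2 : F) ≠ 0) :
    commutator Sp = ⊤ := by
  have h3 : 3 ≤ Fintype.card F := by
    by_contra hlt
    have h4 : 1 < Fintype.card F := Fintype.one_lt_card
    have h5 : Fintype.card F = 2 := by omega
    apply h2
    have := Nat.cast_card_eq_zero F
    rw [h5] at this
    exact_mod_cast this
  exact sp_commutator_eq_top (by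
    rcases hm.eq_or_lt with h | h
    · exact Or.inr (Or.inl ⟨h.symm, h3⟩)
    · exact Or.inl h)

section Main

variable [Fintype F] {F₀ : Type*} [Field F₀] [Fintype F₀] {j : F₀ →+* F} {σ : F ≃+* F}

/-- the subfield subgroup of `PSp`. -/
noncomputable def subL (j : F₀ →+* F) : Subgroup (Cfsg.PSp m F) := (mkP.comp (mapSp j)).range

lemma fix_lift (s : Sp) (h : fA σ (mkP s) = mkP s) :
    ∃ z ∈ Subgroup.center Sp, fieldSp σ s = s * z := by
  rw [fA_mk] at h
  refine ⟨s⁻¹ * fieldSp σ s, ?_, by group⟩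
  rw [← mkP_eq_one, map_mul, map_inv, h, inv_mul_cancel]

variable (hj : ∀ x, σ x = x ↔ ∃ y, j y = x)

include hj

lemma mkP_mem_subL (s : Sp) (h : fieldSp σ s = s) : mkP s ∈ subL (m := m) j := by
  obtain ⟨s₀, rfl⟩ := exists_mapSp_eq hj s h
  exact ⟨s₀, rfl⟩

lemma subL_fix (k : Cfsg.PSp m F) (hk : k ∈ subL (m := m) j) : fA σ k = k := by
  obtain ⟨s₀, rfl⟩ := hk
  show fA σ (mkP (mapSp j s₀)) = mkP (mapSp j s₀)
  rw [fA_mk, fieldSp_mapSp hj]

lemma subL_norm (k : Cfsg.PSp m F) (hk : fA σ k = k) (l : Cfsg.PSp m F)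
    (hl : l ∈ subL (m := m) j) : k * l * k⁻¹ ∈ subL (m := m) j := by
  obtain ⟨s, rfl⟩ := mkP_surj k
  obtain ⟨t₀, rfl⟩ := hl
  obtain ⟨z, hz, hs⟩ := fix_lift s hk
  show mkP s * mkP (mapSp j t₀) * (mkP s)⁻¹ ∈ _
  rw [← map_inv, ← map_mul, ← map_mul]
  apply mkP_mem_subL hj
  rw [map_mul, map_mul, map_inv, hs, fieldSp_mapSp hj]
  have h1 := Subgroup.mem_center_iff.1 hz (mapSp j t₀)
  calc s * z * mapSp j t₀ * (s * z)⁻¹ = s * (z * mapSp j t₀) * z⁻¹ * s⁻¹ := by group
    _ = s * mapSp j t₀ * s⁻¹ := by rw [← h1]; group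

omit hj in
lemma fix_ne (hm : 2 ≤ m) : ∃ k : Cfsg.PSp m F, fA σ k = k ∧ k ≠ 1 := by
  refine ⟨mkP (tv (eL ⟨0, by omega⟩) 1), ?_, ?_⟩
  · have h3 : thV σ (eL ⟨0, by omega⟩ : V) = eL ⟨0, by omega⟩ := thV_single σ _
    rw [fA_mk, fieldSp_tv, h3, map_one]
  · intro h
    have h1 : mkP (tv (eL ⟨0, by omega⟩ : V) 1) = mkP (tv (eL ⟨0, by omega⟩ : V) 0) := by
      rw [h, tv_zero_right, map_one]
    exact one_ne_zero (tv_inj (eL_ne_zero _) (tv_eq_of_mkP_eq hm h1))

lemma hb_psp (hm : 2 ≤ m) {p r : ℕ} [hp : Fact p.Prime] [Fact r.Prime] [CharP F r] (hpr : p ≠ r)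
    (hdvd : p ∣ Nat.card ↥(MonoidHom.eqLocus (fA σ : MulAut (Cfsg.PSp m F)).toMonoidHom
      (MonoidHom.id (Cfsg.PSp m F))))
    (M : Subgroup (Cfsg.PSp m F)) (hML : M ≤ subL j)
    (hnorm : ∀ l ∈ subL (m := m) j, ∀ k ∈ M, l * k * l⁻¹ ∈ M) (hM : M ≠ ⊥) : p ∣ Nat.card M := by
  have hm1 : 1 ≤ m := by omega
  let π : Matrix.symplecticGroup (Fin m) F₀ →* Cfsg.PSp m F := mkP.comp (mapSp j)
  have hN : (M.comap π).Normal := ⟨fun s hs t => by
    show π (t * s * t⁻¹) ∈ M
    rw [map_mul, map_mul, map_inv]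
    exact hnorm _ ⟨t, rfl⟩ _ hs⟩
  rcases sp_normal_le_center_or (M.comap π) with h | h
  · exfalso
    apply hM
    rw [eq_bot_iff]
    intro k hk
    obtain ⟨s₀, rfl⟩ := hML hk
    have hs₀ : s₀ ∈ Subgroup.center _ := h hk
    obtain ⟨a, ha⟩ := sp_center_scalar m s₀ hs₀
    show mkP (mapSp j s₀) = 1
    rw [mkP_eq_one]
    apply scalar_mem_center (a := j a)
    rw [mapSp_coe, ha]
    ext a b
    by_cases hab : a = b
    · subst hab; simp
    · simp [hab]
  · by_cases hp2 : p = 2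
    · subst hp2
      have h2 : (2 : F) ≠ 0 := by
        intro h0
        have h1 : ((2 : ℕ) : F) = 0 := by exact_mod_cast h0
        rw [CharP.cast_eq_zero_iff F r 2] at h1
        exact hpr ((Nat.prime_dvd_prime_iff_eq Fact.out Nat.prime_two).1 h1).symm
      have h2' : (2 : F₀) ≠ 0 := fun h0 => h2 (by
        have := congrArg j h0
        rw [map_ofNat, map_zero] at this
        exact this)
      obtain ⟨t₀, ht₀⟩ := exists_mapSp_eq hj (invS hm1) (fieldSp_invS hm1 σ)
      have hmem : π t₀ ∈ M := h (by rw [commutator_top_of_two_ne_zero hm h2']; trivial)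
      have hπ : π t₀ = mkP (invS hm1) := by rw [← ht₀]; rfl
      have hord : orderOf (π t₀) = 2 := by
        apply orderOf_eq_prime
        · rw [hπ, sq, ← map_mul, invS_mul_self, map_one]
        · rw [hπ, Ne, mkP_eq_one]
          exact invS_not_center hm h2
      have := orderOf_dvd_natCard (⟨π t₀, hmem⟩ : M)
      rwa [Subgroup.orderOf_mk, hord] at this
    · obtain ⟨k, hk⟩ := exists_prime_orderOf_dvd_card' p hdvd
      obtain ⟨s, hs⟩ := mkP_surj k.1
      have hk2 : fA σ (mkP s) = mkP s := by rw [hs]; exact k.2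
      obtain ⟨z, hz, hsz⟩ := fix_lift s hk2
      have hss : fieldSp σ (s * s) = s * s := by
        rw [map_mul, hsz]
        have h1 := Subgroup.mem_center_iff.1 hz s
        calc s * z * (s * z) = s * (z * s) * z := by group
          _ = s * s * (z * z) := by rw [← h1]; group
          _ = s * s := by rw [center_sq hm1 hz, mul_one]
      obtain ⟨s₀, hs₀⟩ := exists_mapSp_eq hj _ hss
      have hmem : π (s₀ * s₀) ∈ M := h (sq_mem_commutator hm s₀)
      have hπ : π (s₀ * s₀) = k.1 ^ 4 := by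
        show mkP (mapSp j (s₀ * s₀)) = _
        rw [map_mul, hs₀, ← hs, map_mul, map_mul]
        simp only [pow_succ, pow_zero, one_mul, mul_assoc]
      have hord : orderOf (k.1 ^ 4) = p := by
        rw [Nat.Coprime.orderOf_pow, Subgroup.orderOf_coe, hk]
        rw [Subgroup.orderOf_coe, hk]
        exact Nat.Coprime.pow_right 2 ((Nat.coprime_primes hp.out Nat.prime_two).2 hp2)
      have := orderOf_dvd_natCard (⟨π (s₀ * s₀), hmem⟩ : M)
      rwa [Subgroup.orderOf_mk, hπ, hord] at this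

lemma hc_psp (r : ℕ) [Fact r.Prime] [CharP F r] (hm : 2 ≤ m) {p : ℕ} (hσ : orderOf σ = p)
    (n : MulAut (Cfsg.PSp m F)) (h : ∀ k ∈ subL (m := m) j, n k = k) : n ^ p = 1 := by
  have hfix : ∀ (v : V) (c : F), thV σ v = v → σ c = c → n (mkP (tv v c)) = mkP (tv v c) :=
    fun v c hv hc => h _ (mkP_mem_subL hj _ (by rw [fieldSp_tv, hv, hc]))
  obtain ⟨g, τ, rfl⟩ := mem_gam_of_fix_tv r hm n (eL_ne_zero ⟨0, by omega⟩)
    (hfix _ 1 (thV_single σ _) (map_one σ))
  obtain ⟨h1, h2⟩ := fix_analysis hm σ g τ hfix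
  obtain ⟨k, rfl⟩ := mem_zpowers_of_fix σ τ h2
  rw [h1, one_mul, ← map_pow]
  have : (σ ^ k) ^ p = 1 := by
    rw [← zpow_natCast, ← _root_.zpow_mul, mul_comm, _root_.zpow_mul, zpow_natCast, ← hσ,
      pow_orderOf_eq_one, _root_.one_zpow]
  rw [this, map_one]

end Main

theorem row_S2730 [Fintype F] {r : ℕ} [Fact r.Prime] [CharP F r] (hm : 2 ≤ m)
    (A : Subgroup (MulAut (Cfsg.PSp m F))) (hinn : ∀ k : Cfsg.PSp m F, MulAut.conj k ∈ A) {p : ℕ}
    [hp : Fact p.Prime] (hpr : p ≠ r) (x : MulAut (Cfsg.PSp m F)) (hord : orderOf x = p)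
    (hnot : ¬ Cfsg.IsInnerDiagonalAutPSp x) :
    Cfsg.pPrimeCore p ↥(A ⊓ Subgroup.centralizer {x}) ≠ ⊥ ↔
      (Cfsg.IsFieldAutClassPSp x ∧ Nat.Coprime p (Nat.card ↥(MonoidHom.eqLocus x.toMonoidHom
        (MonoidHom.id (Cfsg.PSp m F))))) := by
  obtain ⟨g, σ, hx⟩ := mem_gam_of_order r hm x hp.out hpr hord
  have hσ1 : σ ≠ 1 := by
    rintro rfl
    apply hnot
    rw [isInnerDiagonal_iff, hx, map_one, mul_one]
    exact ⟨g, rfl⟩
  have hxp : (cG g * fA σ) ^ p = 1 := by rw [← hx, ← hord, pow_orderOf_eq_one]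
  have hσp : σ ^ p = 1 := by
    have := hxp
    rw [pow_cG_fA] at this
    exact eq_one_of_cG_mul_fA_eq_one hm this
  have hσ : orderOf σ = p := orderOf_eq_prime hσp hσ1
  obtain ⟨h, hh⟩ := field_coset hm σ p hσ hp.out.pos g hxp
  have e : (cG h)⁻¹ * x * ((cG h)⁻¹)⁻¹ = fA σ := by rw [hx, hh]; group
  have hcls : Cfsg.IsFieldAutClassPSp x := ⟨(cG h)⁻¹, σ, hσ1, by rw [e]; exact isStdField_fA σ⟩
  obtain ⟨t1, t2⟩ := LB.transport A p e
  rw [t1, t2]
  have : Fintype (fixK σ) := Fintype.ofFinite _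
  have hj : ∀ x, σ x = x ↔ ∃ y, (fixK σ).subtype y = x :=
    fun x => ⟨fun h => ⟨⟨x, mem_fixK.2 h⟩, rfl⟩, by rintro ⟨y, rfl⟩; exact mem_fixK.1 y.2⟩
  have key := LB.localBalance (conj_injective (F := F) hm)
    (A.map (MulAut.conj (cG h)⁻¹).toMonoidHom) (fun k => ⟨MulAut.conj ((cG h) k), hinn _, by
      show (cG h)⁻¹ * MulAut.conj ((cG h) k) * ((cG h)⁻¹)⁻¹ = MulAut.conj k
      rw [LB.conj_conj]
      simp⟩) p (fA σ) (subL (fixK σ).subtype) (subL_fix hj) (subL_norm hj) (fix_ne hm)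
    (hb_psp hj hm hpr) (hc_psp hj r hm hσ)
  rw [key]
  exact ⟨fun h => ⟨hcls, h⟩, fun h => h.2⟩

end Cfsg.Agent.Lib.Helper98.PSpF
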