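import Mathlib

set_option autoImplicit false
set_option linter.style.haveILetI false

namespace Cfsg.Agent.Lib.Helper98

universe u

open MulAction Subgroup

/-- Transfer evaluation: if all the "outside" factors vanish, the transfer of `x ∈ M` is `ϕ x`. -/
theorem transfer_eq_of_forall {G A : Type*} [Group G] [CommGroup A] (M : Subgroup G)
    [M.FiniteIndex] (ϕ : M →* A) (x : G) (hx : x ∈ M)
    (h : ∀ t : G, t ∉ M → ∀ n : ℕ, ∀ hm : t⁻¹ * x ^ n * t ∈ M, ϕ ⟨_, hm⟩ = 1) :
    MonoidHom.transfer ϕ x = ϕ ⟨x, hx⟩ := by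
  classical
  letI : Fintype (G ⧸ M) := M.fintypeQuotientOfFiniteIndex
  letI : Fintype (Quotient (orbitRel (zpowers x) (G ⧸ M))) := Fintype.ofFinite _
  rw [MonoidHom.transfer_eq_prod_quotient_orbitRel_zpowers_quot]
  have hfix : ∀ z ∈ zpowers x, z • ((1 : G) : G ⧸ M) = ((1 : G) : G ⧸ M) := by
    intro z hz
    have hzM : z ∈ M := (zpowers_le.mpr hx) hz
    change ((z * 1 : G) : G ⧸ M) = _
    rw [QuotientGroup.eq]
    simpa using hzM
  rw [Finset.prod_eq_single (Quotient.mk'' ((1 : G) : G ⧸ M))]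
  · set q : Quotient (orbitRel (zpowers x) (G ⧸ M)) := Quotient.mk'' ((1 : G) : G ⧸ M) with hq
    have h1 : q.out = ((1 : G) : G ⧸ M) := by
      have h2 : (orbitRel (zpowers x) (G ⧸ M)) q.out ((1 : G) : G ⧸ M) := by
        apply Quotient.exact
        rw [Quotient.out_eq]
      rw [orbitRel_apply, mem_orbit_iff] at h2
      obtain ⟨z, hz⟩ := h2
      rw [← hz]
      exact hfix z.1 z.2
    have h3 : q.out.out ∈ M := by
      have h4 : ((q.out.out : G) : G ⧸ M) = ((1 : G) : G ⧸ M) := by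
        rw [QuotientGroup.out_eq', h1]
      rw [QuotientGroup.eq] at h4
      simpa using h4
    have h5 : Function.minimalPeriod (x • ·) q.out = 1 := by
      rw [Function.minimalPeriod_eq_one_iff_isFixedPt, h1]
      exact hfix x (mem_zpowers x)
    have h6 : (⟨q.out.out⁻¹ * x ^ Function.minimalPeriod (x • ·) q.out * q.out.out,
            QuotientGroup.out_conj_pow_minimalPeriod_mem M x q.out⟩ : M)
        = (⟨q.out.out, h3⟩ : M)⁻¹ * ⟨x, hx⟩ * ⟨q.out.out, h3⟩ := by
      apply Subtype.ext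
      simp [h5]
    rw [h6, map_mul, map_mul, map_inv, mul_comm, mul_inv_cancel_left]
  · intro q _ hq
    apply h
    intro h3
    apply hq
    have h4 : ((q.out.out : G) : G ⧸ M) = ((1 : G) : G ⧸ M) := by
      rw [QuotientGroup.eq]
      simpa using h3
    rw [QuotientGroup.out_eq'] at h4
    rw [← h4]
    exact (Quotient.out_eq q).symm
  · intro h
    exact absurd (Finset.mem_univ _) h

/-- Packaged transfer into the (cyclic) quotient `M / H`. -/
theorem exists_transfer_hom {G : Type u} [Group G] [Finite G] (H M : Subgroup G) (hHM : H ≤ M)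
    (hn : (H.subgroupOf M).Normal) (x₀ : G) (hx₀M : x₀ ∈ M) (hx₀ : M ≤ H ⊔ zpowers x₀) :
    ∃ (A : Type u) (_ : CommGroup A) (τ : G →* A), ∀ x ∈ M,
      (∀ t : G, t ∉ M → ∀ n : ℕ, t⁻¹ * x ^ n * t ∈ M → t⁻¹ * x ^ n * t ∈ H) →
        (τ x = 1 ↔ x ∈ H) := by
  classical
  have hcyc : IsCyclic (M ⧸ H.subgroupOf M) := by
    rw [isCyclic_iff_exists_zpowers_eq_top]
    refine ⟨QuotientGroup.mk' _ (⟨x₀, hx₀M⟩ : M), ?_⟩
    have h1 : H.subgroupOf M ⊔ zpowers (⟨x₀, hx₀M⟩ : M) = ⊤ := by
      have h2 : zpowers (⟨x₀, hx₀M⟩ : M) = (zpowers x₀).subgroupOf M := by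
        apply Subgroup.map_injective M.subtype_injective
        rw [MonoidHom.map_zpowers, Subgroup.subgroupOf_map_subtype,
          inf_eq_left.mpr (zpowers_le.mpr hx₀M)]
        rfl
      rw [h2, ← subgroupOf_sup hHM (zpowers_le.mpr hx₀M), subgroupOf_eq_top]
      exact hx₀
    have h3 := congrArg (Subgroup.map (QuotientGroup.mk' (H.subgroupOf M))) h1
    rw [Subgroup.map_sup, QuotientGroup.map_mk'_self, bot_sup_eq, MonoidHom.map_zpowers,
      Subgroup.map_top_of_surjective _ (QuotientGroup.mk'_surjective _)] at h3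
    exact h3
  letI : CommGroup (M ⧸ H.subgroupOf M) := IsCyclic.commGroup
  refine ⟨M ⧸ H.subgroupOf M, inferInstance,
    MonoidHom.transfer (QuotientGroup.mk' (H.subgroupOf M)), ?_⟩
  intro x hx h
  rw [transfer_eq_of_forall M _ x hx]
  · rw [QuotientGroup.mk'_apply, QuotientGroup.eq_one_iff, mem_subgroupOf]
  · intro t ht n hm
    rw [QuotientGroup.mk'_apply, QuotientGroup.eq_one_iff, mem_subgroupOf]
    exact h t ht n hm

theorem map_conj_map_conj {G : Type*} [Group G] (K : Subgroup G) (a b : G) :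
    (K.map (MulAut.conj a).toMonoidHom).map (MulAut.conj b).toMonoidHom
      = K.map (MulAut.conj (b * a)).toMonoidHom := by
  rw [Subgroup.map_map]
  congr 1
  ext y
  simp [mul_assoc]

theorem map_conj_eq_of_mem {G : Type*} [Group G] {H M : Subgroup G} (hHM : H ≤ M)
    (hn : (H.subgroupOf M).Normal) {x : G} (hx : x ∈ M) :
    H.map (MulAut.conj x).toMonoidHom = H := by
  have h1 := (Subgroup.normal_subgroupOf_iff_le_normalizer hHM).mp hn hx
  exact mem_normalizer_iff_map_conj_eq.mp h1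

theorem map_conj_eq_of_mem_map {G : Type*} [Group G] {H M : Subgroup G} (hHM : H ≤ M)
    (hn : (H.subgroupOf M).Normal) {x g : G} (hx : x ∈ M.map (MulAut.conj g).toMonoidHom) :
    (H.map (MulAut.conj g).toMonoidHom).map (MulAut.conj x).toMonoidHom
      = H.map (MulAut.conj g).toMonoidHom := by
  obtain ⟨m, hm, rfl⟩ := hx
  rw [map_conj_map_conj]
  have h1 : (MulAut.conj g).toMonoidHom m * g = g * m := by simp
  rw [h1, ← map_conj_map_conj, map_conj_eq_of_mem hHM hn hm]

/-- If `x` lies in `M` and in `M^g`, it normalizes `H ⊔ H^g`. -/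
theorem normal_sup_conj_of_sup_zpowers {G : Type*} [Group G] {H M : Subgroup G} (hHM : H ≤ M)
    (hn : (H.subgroupOf M).Normal) {x g : G} (hx : x ∈ M)
    (hxg : x ∈ M.map (MulAut.conj g).toMonoidHom)
    (htop : (H ⊔ H.map (MulAut.conj g).toMonoidHom) ⊔ zpowers x = ⊤) :
    (H ⊔ H.map (MulAut.conj g).toMonoidHom).Normal := by
  rw [← normalizer_eq_top_iff, eq_top_iff, ← htop]
  refine sup_le le_normalizer ?_
  rw [zpowers_le]
  apply mem_normalizer_iff_map_conj_eq.mpr
  have h1 := map_conj_eq_of_mem hHM hn hx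
  have h2 := map_conj_eq_of_mem_map hHM hn hxg
  have h3 : (H ⊔ H.map (MulAut.conj g).toMonoidHom).map (MulAut.conj x).toMonoidHom
      = H ⊔ H.map (MulAut.conj g).toMonoidHom := by
    rw [Subgroup.map_sup, h1, h2]
  exact h3

end Cfsg.Agent.Lib.Helper98
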